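import Mathlib
import Cfsg.Agent.Lib.Helper18.LSDefs

/-!
# S2333 piece LS-SHEARINJ (for helper18)

`shear_inj`: the shears `x ↦ x + (ℓ·x) u₀ + (m·x) v₀` (with `ℓ, m` annihilating `u₀, v₀`,
`bl M u₀ v₀ = 1`, characteristic `2`) give pairwise distinct quadratic forms `qf M ∘ shear`.
-/

set_option autoImplicit false

namespace Cfsg.Agent.Lib.Helper18.LS

open Matrix

universe u

variable {F : Type u} [Field F] {n : ℕ}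

/-- the quadratic form of a shear at `x + u₀` and `x + v₀` -/
theorem shearinj_key [CharP F 2] (M : Matrix (Fin n) (Fin n) F) (u₀ v₀ : Fin n → F)
    (h : bl M u₀ v₀ = 1) (ℓ m : Fin n → F) (h1 : ℓ ⬝ᵥ u₀ = 0) (h2 : ℓ ⬝ᵥ v₀ = 0)
    (h3 : m ⬝ᵥ u₀ = 0) (h4 : m ⬝ᵥ v₀ = 0) (x : Fin n → F) :
    qf M (shearM u₀ v₀ ℓ m *ᵥ (x + u₀)) =
        qf M (shearM u₀ v₀ ℓ m *ᵥ x) + qf M u₀ + bl M x u₀ + m ⬝ᵥ x ∧
      qf M (shearM u₀ v₀ ℓ m *ᵥ (x + v₀)) =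
        qf M (shearM u₀ v₀ ℓ m *ᵥ x) + qf M v₀ + bl M x v₀ + ℓ ⬝ᵥ x := by
  have hu : shearM u₀ v₀ ℓ m *ᵥ u₀ = u₀ := by
    rw [shearM_mulVec, h1, h3, zero_smul, zero_smul, add_zero, add_zero]
  have hv : shearM u₀ v₀ ℓ m *ᵥ v₀ = v₀ := by
    rw [shearM_mulVec, h2, h4, zero_smul, zero_smul, add_zero, add_zero]
  constructor
  · have hb : bl M (shearM u₀ v₀ ℓ m *ᵥ x) u₀ = bl M x u₀ + m ⬝ᵥ x := by
      rw [shearM_mulVec, bl_add_left, bl_add_left, bl_smul_left, bl_smul_left, bl_self,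
        bl_comm M v₀ u₀, h]
      ring
    rw [Matrix.mulVec_add, hu, qf_add, hb]
    ring
  · have hb : bl M (shearM u₀ v₀ ℓ m *ᵥ x) v₀ = bl M x v₀ + ℓ ⬝ᵥ x := by
      rw [shearM_mulVec, bl_add_left, bl_add_left, bl_smul_left, bl_smul_left, bl_self, h]
      ring
    rw [Matrix.mulVec_add, hv, qf_add, hb]
    ring

-- piece SHEARINJ
theorem shear_inj [CharP F 2] (M : Matrix (Fin n) (Fin n) F) (u₀ v₀ : Fin n → F)
    (h : bl M u₀ v₀ = 1) (ℓ m ℓ' m' : Fin n → F) (hℓ : ℓ ∈ ann u₀ v₀) (hm : m ∈ ann u₀ v₀)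
    (hℓ' : ℓ' ∈ ann u₀ v₀) (hm' : m' ∈ ann u₀ v₀)
    (heq : ∀ x : Fin n → F,
      qf M (shearM u₀ v₀ ℓ m *ᵥ x) = qf M (shearM u₀ v₀ ℓ' m' *ᵥ x)) :
    ℓ = ℓ' ∧ m = m' := by
  classical
  obtain ⟨hℓu, hℓv⟩ := hℓ
  obtain ⟨hmu, hmv⟩ := hm
  obtain ⟨hℓu', hℓv'⟩ := hℓ'
  obtain ⟨hmu', hmv'⟩ := hm'
  have hm_eq : ∀ x, m ⬝ᵥ x = m' ⬝ᵥ x := by
    intro x
    have k1 := (shearinj_key M u₀ v₀ h ℓ m hℓu hℓv hmu hmv x).1
    have k2 := (shearinj_key M u₀ v₀ h ℓ' m' hℓu' hℓv' hmu' hmv' x).1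
    have k3 := heq (x + u₀)
    rw [k1, k2, heq x] at k3
    exact add_left_cancel k3
  have hℓ_eq : ∀ x, ℓ ⬝ᵥ x = ℓ' ⬝ᵥ x := by
    intro x
    have k1 := (shearinj_key M u₀ v₀ h ℓ m hℓu hℓv hmu hmv x).2
    have k2 := (shearinj_key M u₀ v₀ h ℓ' m' hℓu' hℓv' hmu' hmv' x).2
    have k3 := heq (x + v₀)
    rw [k1, k2, heq x] at k3
    exact add_left_cancel k3
  constructor
  · funext i
    have h5 := hℓ_eq (Pi.single i 1)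
    simpa using h5
  · funext i
    have h5 := hm_eq (Pi.single i 1)
    simpa using h5

end Cfsg.Agent.Lib.Helper18.LS
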