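import Mathlib
import Cfsg.Prelude.Def_Classical
import Cfsg.Agent.Lib.Helper18.UEDefs

/-!
# Project UE (S2335, architect helper18): piece MEM (proof by helper21)

`uB H`, `lB H` (`H` Hermitian) and `dB σ g` lie in the model group `GJ σ m β`.
-/

set_option autoImplicit false

namespace Cfsg.Agent.Lib.Helper18.UE

open Matrix

universe u

variable {F : Type u} [Field F] {m : ℕ}

private theorem uemem_map_eq (σ : F →+* F) {H : Matrix (Fin m) (Fin m) F} (hH : IsHerm σ H) :
    H.map σ = Hᵀ := by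
  have h2 : (H.map σ)ᵀ = H := hH
  have h3 := congrArg transpose h2
  rw [transpose_transpose] at h3
  exact h3

theorem uB_mem (σ : F →+* F) (β : F) {H : Matrix (Fin m) (Fin m) F} (hH : IsHerm σ H) :
    uB H ∈ GJ σ m β := by
  have h1 := uemem_map_eq σ hH
  rw [mem_GJ]
  refine ⟨?_, ?_⟩
  · unfold uB Jb
    rw [fromBlocks_transpose, fromBlocks_map, fromBlocks_multiply, fromBlocks_multiply,
      fromBlocks_inj]
    refine ⟨?_, ?_, ?_, ?_⟩
    · simp
    · simp
    · simp
    · simp [h1]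
  · unfold uB
    rw [det_fromBlocks_zero₂₁, det_one, mul_one]

theorem lB_mem (σ : F →+* F) (β : F) {H : Matrix (Fin m) (Fin m) F} (hH : IsHerm σ H) :
    lB H ∈ GJ σ m β := by
  have h1 := uemem_map_eq σ hH
  rw [mem_GJ]
  refine ⟨?_, ?_⟩
  · unfold lB Jb
    rw [fromBlocks_transpose, fromBlocks_map, fromBlocks_multiply, fromBlocks_multiply,
      fromBlocks_inj]
    refine ⟨?_, ?_, ?_, ?_⟩
    · simp [h1]
    · simp
    · simp
    · simp
  · unfold lB
    rw [det_fromBlocks_zero₁₂, det_one, mul_one]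

theorem dB_mem (σ : F →+* F) (hσ : ∀ x, σ (σ x) = x) (β : F)
    (g : SpecialLinearGroup (Fin m) F) : dB σ g ∈ GJ σ m β := by
  have hgg : ((g⁻¹ : SpecialLinearGroup (Fin m) F) : Matrix (Fin m) (Fin m) F) *
      (g : Matrix (Fin m) (Fin m) F) = 1 := by
    have h := congrArg (fun x : SpecialLinearGroup (Fin m) F =>
      (x : Matrix (Fin m) (Fin m) F)) (inv_mul_cancel g)
    exact h
  have h1 : (g : Matrix (Fin m) (Fin m) F)ᵀ *
      (hconj σ ((g⁻¹ : SpecialLinearGroup (Fin m) F) : Matrix (Fin m) (Fin m) F)).map σ = 1 := by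
    have h2 : (hconj σ ((g⁻¹ : SpecialLinearGroup (Fin m) F) : Matrix (Fin m) (Fin m) F)).map σ =
        ((g⁻¹ : SpecialLinearGroup (Fin m) F) : Matrix (Fin m) (Fin m) F)ᵀ := by
      ext i j
      simp [hconj, hσ]
    rw [h2, ← transpose_mul, hgg, transpose_one]
  have h3 : (hconj σ ((g⁻¹ : SpecialLinearGroup (Fin m) F) : Matrix (Fin m) (Fin m) F))ᵀ *
      (g : Matrix (Fin m) (Fin m) F).map σ = 1 := by
    unfold hconj
    rw [transpose_transpose, ← Matrix.map_mul, hgg, Matrix.map_one σ (map_zero σ) (map_one σ)]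
  rw [mem_GJ]
  refine ⟨?_, ?_⟩
  · unfold dB Jb
    rw [fromBlocks_transpose, fromBlocks_map, fromBlocks_multiply, fromBlocks_multiply,
      fromBlocks_inj]
    refine ⟨?_, ?_, ?_, ?_⟩
    · simp
    · have e : ((g : Matrix (Fin m) (Fin m) F)ᵀ * 0 +
          (0 : Matrix (Fin m) (Fin m) F)ᵀ * (-β • (1 : Matrix (Fin m) (Fin m) F))) *
          (0 : Matrix (Fin m) (Fin m) F).map σ +
          ((g : Matrix (Fin m) (Fin m) F)ᵀ * (β • (1 : Matrix (Fin m) (Fin m) F)) +
            (0 : Matrix (Fin m) (Fin m) F)ᵀ * 0) *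
          (hconj σ ((g⁻¹ : SpecialLinearGroup (Fin m) F) : Matrix (Fin m) (Fin m) F)).map σ =
          β • ((g : Matrix (Fin m) (Fin m) F)ᵀ *
            (hconj σ ((g⁻¹ : SpecialLinearGroup (Fin m) F) : Matrix (Fin m) (Fin m) F)).map σ) := by
        simp
      rw [e, h1]
    · have e : ((0 : Matrix (Fin m) (Fin m) F)ᵀ * 0 +
          (hconj σ ((g⁻¹ : SpecialLinearGroup (Fin m) F) : Matrix (Fin m) (Fin m) F))ᵀ *
            (-β • (1 : Matrix (Fin m) (Fin m) F))) *
          (g : Matrix (Fin m) (Fin m) F).map σ +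
          ((0 : Matrix (Fin m) (Fin m) F)ᵀ * (β • (1 : Matrix (Fin m) (Fin m) F)) +
            (hconj σ ((g⁻¹ : SpecialLinearGroup (Fin m) F) : Matrix (Fin m) (Fin m) F))ᵀ * 0) *
          (0 : Matrix (Fin m) (Fin m) F).map σ =
          -β • ((hconj σ ((g⁻¹ : SpecialLinearGroup (Fin m) F) : Matrix (Fin m) (Fin m) F))ᵀ *
            (g : Matrix (Fin m) (Fin m) F).map σ) := by
        simp
      rw [e, h3]
    · simp
  · unfold dB
    rw [det_fromBlocks_zero₂₁]
    unfold hconj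
    have hd1 : (g : Matrix (Fin m) (Fin m) F).det = 1 := g.det_coe
    have hd2 : ((g⁻¹ : SpecialLinearGroup (Fin m) F) : Matrix (Fin m) (Fin m) F).det = 1 :=
      (g⁻¹).det_coe
    rw [det_transpose, ← RingHom.mapMatrix_apply, ← RingHom.map_det, hd1, hd2, map_one, mul_one]

end Cfsg.Agent.Lib.Helper18.UE
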