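import Mathlib
import Cfsg.Prelude.Def_Classical
import Cfsg.Agent.Lib.Helper18.UEDefs
import Cfsg.Agent.Lib.Helper18.UODefs

/-!
# Project UO (S2334, architect helper18): piece SHEARGLU (proof by helper21)

The shear `1 + u ℓᵀ` (`ℓ · u = 0`) is an element of `GL_m`.
-/

set_option autoImplicit false

namespace Cfsg.Agent.Lib.Helper18.UE

open Matrix

universe u

variable {F : Type u} [Field F] {m : ℕ}

theorem shear_glu (u ℓ : Fin m → F) (h : ℓ ⬝ᵥ u = 0) :
    ∃ g : GL (Fin m) F, (g : Matrix (Fin m) (Fin m) F) = 1 + vecMulVec u ℓ := by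
  have hdet : (1 + vecMulVec u ℓ).det = 1 := by
    rw [Matrix.vecMulVec_eq Unit, Matrix.det_one_add_replicateCol_mul_replicateRow, h, add_zero]
  exact ⟨Matrix.GeneralLinearGroup.mkOfDetNeZero (1 + vecMulVec u ℓ)
    (by rw [hdet]; exact one_ne_zero), rfl⟩

end Cfsg.Agent.Lib.Helper18.UE
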