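import Mathlib

/-!
# S4125 piece P4 (helper80's job board): the pair lemma

Also two general lemmas on the natural map `H/(H ⊓ B) → G/B`.
-/

namespace Cfsg.Agent.Lib.Helper21

variable {G : Type*} [Group G] [Finite G]

/-- The natural map `H/(H ⊓ B) → G/B` is injective; if the cardinalities agree, `G = H·B`. -/
theorem baer_exists_of_relIndex_eq (H B : Subgroup G) (h : B.relIndex H = B.index) (g : G) :
    ∃ a ∈ H, a⁻¹ * g ∈ B := by
  classical
  let f : H ⧸ B.subgroupOf H → G ⧸ B :=
    Quotient.map' (fun a : H => (a : G)) (by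
      intro a b hab
      rw [QuotientGroup.leftRel_apply] at hab ⊢
      exact hab)
  have hinj : Function.Injective f := by
    intro a b
    induction a using QuotientGroup.induction_on with
    | H a =>
      induction b using QuotientGroup.induction_on with
      | H b =>
        intro hab
        have h1 : (QuotientGroup.mk (a : G) : G ⧸ B) = QuotientGroup.mk (b : G) := hab
        rw [QuotientGroup.eq] at h1
        exact QuotientGroup.eq.mpr h1
  have hbij := hinj.bijective_of_nat_card_le (le_of_eq (by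
    rw [← Subgroup.index_eq_card, ← h]; rfl))
  obtain ⟨a, ha⟩ := hbij.2 (QuotientGroup.mk g)
  induction a using QuotientGroup.induction_on with
  | H a =>
    have h1 : (QuotientGroup.mk (a : G) : G ⧸ B) = QuotientGroup.mk g := ha
    exact ⟨a, a.2, QuotientGroup.eq.mp h1⟩

/-- Conversely, if `G = H·B` then `|G : B| = |H : H ⊓ B|`. -/
theorem baer_relIndex_eq_of_exists (H B : Subgroup G) (h : ∀ g : G, ∃ a ∈ H, a⁻¹ * g ∈ B) :
    B.relIndex H = B.index := by
  classical
  let f : H ⧸ B.subgroupOf H → G ⧸ B :=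
    Quotient.map' (fun a : H => (a : G)) (by
      intro a b hab
      rw [QuotientGroup.leftRel_apply] at hab ⊢
      exact hab)
  have hinj : Function.Injective f := by
    intro a b
    induction a using QuotientGroup.induction_on with
    | H a =>
      induction b using QuotientGroup.induction_on with
      | H b =>
        intro hab
        have h1 : (QuotientGroup.mk (a : G) : G ⧸ B) = QuotientGroup.mk (b : G) := hab
        rw [QuotientGroup.eq] at h1
        exact QuotientGroup.eq.mpr h1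
  have hsurj : Function.Surjective f := by
    intro c
    induction c using QuotientGroup.induction_on with
    | H g =>
      obtain ⟨a, ha, hag⟩ := h g
      refine ⟨QuotientGroup.mk (⟨a, ha⟩ : H), ?_⟩
      exact QuotientGroup.eq.mpr hag
  exact Nat.card_congr (Equiv.ofBijective f ⟨hinj, hsurj⟩)

theorem pair_lemma (p r : ℕ) (hp : p.Prime) (hr : r.Prime) (hpr : p ≠ r) (x y : G)
    (hxy : x * y = y * x)
    (hx : ∃ a : ℕ, (Subgroup.centralizer ({x} : Set G)).index = p ^ a)
    (hy : ∃ b : ℕ, (Subgroup.centralizer ({y} : Set G)).index = r ^ b)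
    (hxy' : ∃ c : ℕ, (Subgroup.centralizer ({x * y} : Set G)).index = p ^ c) :
    ∃ S : Subgroup G, S.Normal ∧ IsPGroup p S ∧ ∀ g : G, y⁻¹ * (g * y * g⁻¹) ∈ S := by
  classical
  obtain ⟨a, ha⟩ := hx
  obtain ⟨b, hb⟩ := hy
  obtain ⟨c, hc⟩ := hxy'
  have memA : ∀ g, g ∈ Subgroup.centralizer ({x} : Set G) ↔ g * x = x * g :=
    fun g => Subgroup.mem_centralizer_singleton_iff
  have memB : ∀ g, g ∈ Subgroup.centralizer ({y} : Set G) ↔ g * y = y * g :=
    fun g => Subgroup.mem_centralizer_singleton_iff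
  have memD : ∀ g, g ∈ Subgroup.centralizer ({x * y} : Set G) ↔ g * (x * y) = (x * y) * g :=
    fun g => Subgroup.mem_centralizer_singleton_iff
  generalize hA : Subgroup.centralizer ({x} : Set G) = A at ha memA
  generalize hB : Subgroup.centralizer ({y} : Set G) = B at hb memB
  generalize hD : Subgroup.centralizer ({x * y} : Set G) = D at hc memD
  have hpos : 0 < p := hp.pos
  have hrpos : 0 < r := hr.pos
  have hcop : ∀ i j : ℕ, Nat.Coprime (p ^ i) (r ^ j) := fun i j =>
    Nat.Coprime.pow i j ((Nat.coprime_primes hp hr).mpr hpr)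
  -- A ⊓ B ≤ D and D ⊓ B = A ⊓ B
  have hABD : A ⊓ B ≤ D := by
    intro g hg
    rw [Subgroup.mem_inf, memA, memB] at hg
    rw [memD, ← mul_assoc, hg.1, mul_assoc, hg.2, mul_assoc]
  have hDB : D ⊓ B = A ⊓ B := by
    apply le_antisymm
    · intro g hg
      rw [Subgroup.mem_inf, memD, memB] at hg
      rw [Subgroup.mem_inf, memA, memB]
      refine ⟨?_, hg.2⟩
      have h1 : g * x * y = x * g * y := by
        rw [mul_assoc, hg.1, mul_assoc x g y, hg.2, mul_assoc]
      exact mul_right_cancel h1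
    · exact le_inf hABD inf_le_right
  -- IDX
  have hAB : (A ⊓ B).index = p ^ a * r ^ b := by
    apply le_antisymm
    · rw [← ha, ← hb]; exact Subgroup.index_inf_le
    · apply Nat.le_of_dvd (Nat.pos_of_ne_zero Subgroup.index_ne_zero_of_finite)
      apply Nat.Coprime.mul_dvd_of_dvd_of_dvd (hcop a b)
      · rw [← ha]; exact Subgroup.index_dvd_of_le inf_le_left
      · rw [← hb]; exact Subgroup.index_dvd_of_le inf_le_right
  have hBA : B.relIndex A = B.index := by
    have h1 := Subgroup.relIndex_mul_index (inf_le_left : A ⊓ B ≤ A)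
    rw [Subgroup.inf_relIndex_left, hAB, ha, mul_comm] at h1
    rw [hb]
    exact Nat.eq_of_mul_eq_mul_left (pow_pos hpos a) h1
  have hBD : B.relIndex D = B.index := by
    have h1 := Subgroup.relIndex_mul_index hABD
    rw [← hDB, Subgroup.inf_relIndex_left, hDB, hAB, hc] at h1
    have h2 : B.relIndex D ≤ r ^ b := by
      have h3 := Subgroup.relIndex_mul_index (inf_le_left : D ⊓ B ≤ D)
      rw [Subgroup.inf_relIndex_left] at h3
      have h4 : (D ⊓ B).index ≤ D.index * B.index := Subgroup.index_inf_le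
      rw [← h3, hb, hc, mul_comm] at h4
      exact Nat.le_of_mul_le_mul_left h4 (pow_pos hpos c)
    have h5 : p ^ c ∣ p ^ a := by
      have : p ^ c ∣ p ^ a * r ^ b := ⟨B.relIndex D, by rw [← h1, mul_comm]⟩
      exact (hcop c b).dvd_of_dvd_mul_right this
    have h6 : p ^ c ≤ p ^ a := Nat.le_of_dvd (pow_pos hpos a) h5
    rw [hb]
    apply le_antisymm h2
    by_contra hlt
    push Not at hlt
    have h7 : B.relIndex D * p ^ c < r ^ b * p ^ c :=
      Nat.mul_lt_mul_of_pos_right hlt (pow_pos hpos c)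
    have h8 : r ^ b * p ^ c ≤ r ^ b * p ^ a := Nat.mul_le_mul_left _ h6
    rw [h1] at h7
    rw [mul_comm (r ^ b) (p ^ a)] at h8
    omega
  -- transitivity statements
  have tA : ∀ g : G, ∃ a' ∈ A, g * y * g⁻¹ = a' * y * a'⁻¹ := by
    intro g
    obtain ⟨a', ha', h1⟩ := baer_exists_of_relIndex_eq A B hBA g
    refine ⟨a', ha', ?_⟩
    rw [memB] at h1
    have : g * y = a' * y * a'⁻¹ * g := by
      have h2 : a' * (a'⁻¹ * g * y) = a' * (y * (a'⁻¹ * g)) := by rw [h1]
      simpa [mul_assoc] using h2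
    rw [this]; group
  have tD : ∀ g : G, ∃ d ∈ D, g * y * g⁻¹ = d * y * d⁻¹ := by
    intro g
    obtain ⟨a', ha', h1⟩ := baer_exists_of_relIndex_eq D B hBD g
    refine ⟨a', ha', ?_⟩
    rw [memB] at h1
    have : g * y = a' * y * a'⁻¹ * g := by
      have h2 : a' * (a'⁻¹ * g * y) = a' * (y * (a'⁻¹ * g)) := by rw [h1]
      simpa [mul_assoc] using h2
    rw [this]; group
  -- the class of x
  let φ : G ⧸ A → G := Quotient.lift (fun g : G => g * x * g⁻¹) (by
    intro g1 g2 h12
    have h1 : g1⁻¹ * g2 ∈ A := QuotientGroup.leftRel_apply.mp h12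
    rw [memA] at h1
    show g1 * x * g1⁻¹ = g2 * x * g2⁻¹
    have h2 : g1 * (g1⁻¹ * g2 * x) * g2⁻¹ = g1 * (x * (g1⁻¹ * g2)) * g2⁻¹ := by rw [h1]
    simp only [mul_assoc, mul_inv_cancel_left, mul_inv_cancel, mul_one] at h2
    simp only [mul_assoc]
    exact h2.symm)
  have hφ : ∀ g : G, φ (QuotientGroup.mk g) = g * x * g⁻¹ := fun g => rfl
  have hφinj : Function.Injective φ := by
    intro u v
    induction u using QuotientGroup.induction_on with
    | H u =>
      induction v using QuotientGroup.induction_on with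
      | H v =>
        intro huv
        rw [hφ, hφ] at huv
        apply QuotientGroup.eq.mpr
        rw [memA]
        have h2 : u⁻¹ * (u * x * u⁻¹) * v = u⁻¹ * (v * x * v⁻¹) * v := by rw [huv]
        simp only [mul_assoc, inv_mul_cancel_left, inv_mul_cancel, mul_one] at h2
        rw [mul_assoc, ← h2]
  have hCXcard : Nat.card (Set.range φ) = p ^ a := by
    rw [Nat.card_range_of_injective hφinj, ← Subgroup.index_eq_card, ha]
  have memCX : ∀ t : G, t ∈ Set.range φ ↔ ∃ g : G, g * x * g⁻¹ = t := by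
    intro t
    constructor
    · rintro ⟨u, rfl⟩
      induction u using QuotientGroup.induction_on with
      | H u => exact ⟨u, rfl⟩
    · rintro ⟨g, rfl⟩
      exact ⟨QuotientGroup.mk g, rfl⟩
  generalize Set.range φ = CX at hCXcard memCX
  have conjCX : ∀ (t g : G), t ∈ CX → g * t * g⁻¹ ∈ CX := by
    intro t g ht
    rw [memCX] at ht ⊢
    obtain ⟨k, rfl⟩ := ht
    exact ⟨g * k, by group⟩
  -- basic relation
  have h3 : ∀ g : G, x * (y * (g * y * g⁻¹)⁻¹) ∈ CX := by
    intro g
    obtain ⟨d, hd, hgd⟩ := tD g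
    rw [hgd, memCX]
    refine ⟨d, ?_⟩
    rw [memD] at hd
    have h4 : d * x * d⁻¹ * (d * y * d⁻¹) = x * y := by
      have : d * x * d⁻¹ * (d * y * d⁻¹) = d * (x * y) * d⁻¹ := by group
      rw [this, hd]; group
    have h5 : d * x * d⁻¹ = x * y * (d * y * d⁻¹)⁻¹ := by
      rw [← h4]; group
    rw [h5, mul_assoc]
  -- general relation
  have h4 : ∀ (t : G), t ∈ CX → ∀ g1 g2 : G,
      t * ((g1 * y * g1⁻¹) * (g2 * y * g2⁻¹)⁻¹) ∈ CX := by
    intro t ht g1 g2
    rw [memCX] at ht
    obtain ⟨g, rfl⟩ := ht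
    obtain ⟨a', ha', h5⟩ := tA (g⁻¹ * g1)
    rw [memA] at ha'
    -- g' = g * a'
    have h6 : g * x * g⁻¹ = (g * a') * x * (g * a')⁻¹ := by
      have : (g * a') * x * (g * a')⁻¹ = g * (a' * x) * a'⁻¹ * g⁻¹ := by group
      rw [this, ha']; group
    have h7 : g1 * y * g1⁻¹ = (g * a') * y * (g * a')⁻¹ := by
      have : (g * a') * y * (g * a')⁻¹ = g * (a' * y * a'⁻¹) * g⁻¹ := by group
      rw [this, ← h5]; group
    have h8 := conjCX _ (g * a') (h3 ((g * a')⁻¹ * g2))
    have h9 : (g * a') * (x * (y * ((g * a')⁻¹ * g2 * y * ((g * a')⁻¹ * g2)⁻¹)⁻¹)) * (g * a')⁻¹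
        = ((g * a') * x * (g * a')⁻¹) * (((g * a') * y * (g * a')⁻¹) * (g2 * y * g2⁻¹)⁻¹) := by
      group
    rw [h9, ← h6, ← h7] at h8
    exact h8
  -- the subgroup S
  let S : Subgroup G :=
    { carrier := {s | ∀ t : G, t ∈ CX ↔ t * s ∈ CX}
      one_mem' := fun t => by rw [mul_one]
      mul_mem' := by
        intro s1 s2 h1 h2 t
        rw [← mul_assoc]
        exact (h1 t).trans (h2 (t * s1))
      inv_mem' := by
        intro s h1 t
        have := h1 (t * s⁻¹)
        rw [inv_mul_cancel_right] at this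
        exact this.symm }
  have memS : ∀ s : G, s ∈ S ↔ ∀ t : G, t ∈ CX ↔ t * s ∈ CX := fun s => Iff.rfl
  have conjCX' : ∀ (t g : G), t ∈ CX ↔ g * t * g⁻¹ ∈ CX := by
    intro t g
    refine ⟨conjCX t g, fun h => ?_⟩
    have := conjCX _ g⁻¹ h
    simpa [mul_assoc] using this
  have hSn : S.Normal := by
    constructor
    intro n hn g
    rw [memS] at hn ⊢
    intro t
    rw [conjCX' t g⁻¹, hn (g⁻¹ * t * g⁻¹⁻¹), conjCX' (g⁻¹ * t * g⁻¹⁻¹ * n) g]
    have : g * (g⁻¹ * t * g⁻¹⁻¹ * n) * g⁻¹ = t * (g * n * g⁻¹) := by group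
    rw [this]
  have hyS : ∀ g1 g2 : G, (g1 * y * g1⁻¹) * (g2 * y * g2⁻¹)⁻¹ ∈ S := by
    intro g1 g2
    rw [memS]
    intro t
    refine ⟨fun ht => h4 t ht g1 g2, fun ht => ?_⟩
    have := h4 _ ht g2 g1
    have e : t * (g1 * y * g1⁻¹ * (g2 * y * g2⁻¹)⁻¹) * (g2 * y * g2⁻¹ * (g1 * y * g1⁻¹)⁻¹) = t := by
      group
    rwa [e] at this
  -- S is a p-group
  have hSp : IsPGroup p S := by
    have h5 : (QuotientGroup.mk ⁻¹' ((QuotientGroup.mk : G → G ⧸ S) '' CX)) = CX := by
      ext t
      constructor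
      · rintro ⟨t', ht', h6⟩
        have h7 : t'⁻¹ * t ∈ S := QuotientGroup.eq.mp h6
        have := ((memS _).mp h7 t').mp ht'
        rwa [mul_inv_cancel_left] at this
      · intro ht
        exact ⟨t, ht, rfl⟩
    have h6 := QuotientGroup.card_preimage_mk S ((QuotientGroup.mk : G → G ⧸ S) '' CX)
    rw [h5, hCXcard] at h6
    have h7 : Nat.card S ∣ p ^ a := ⟨_, h6⟩
    obtain ⟨k, -, hk⟩ := (Nat.dvd_prime_pow hp).mp h7
    haveI : Fact p.Prime := ⟨hp⟩
    exact IsPGroup.of_card hk
  refine ⟨S, hSn, hSp, fun g => ?_⟩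
  have h5 := hyS g 1
  have h6 := hSn.conj_mem _ h5 y⁻¹
  have e : y⁻¹ * (g * y * g⁻¹ * (1 * y * 1⁻¹)⁻¹) * y⁻¹⁻¹ = y⁻¹ * (g * y * g⁻¹) := by group
  rwa [e] at h6

end Cfsg.Agent.Lib.Helper21
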