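import Cfsg.Agent.Lib.Helper21.BaerP4

/-!
# S4125 piece P5 (helper80's job board): coprime centralizer, q-element version
-/

namespace Cfsg.Agent.Lib.Helper21

variable {G : Type*} [Group G] [Finite G]

/-- `|A| * |B : A| = |B|` for `A ≤ B`. -/
theorem baer_card_mul_relIndex {A B : Subgroup G} (hAB : A ≤ B) :
    Nat.card A * A.relIndex B = Nat.card B := by
  have h1 := Subgroup.card_mul_index (A.subgroupOf B)
  rw [Nat.card_congr (Subgroup.subgroupOfEquivOfLe hAB).toEquiv] at h1
  exact h1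

theorem index_centralizer_of_comm_mem (p q : ℕ) [Fact p.Prime] [Fact q.Prime] (hpq : p ≠ q)
    (S : Subgroup G) [S.Normal]
    (hS : IsPGroup p S) (y : G) (hy : ∃ k : ℕ, orderOf y = q ^ k)
    (h : ∀ g : G, y⁻¹ * (g * y * g⁻¹) ∈ S) :
    ∃ k : ℕ, (Subgroup.centralizer ({y} : Set G)).index = p ^ k := by
  classical
  obtain ⟨k, hk⟩ := hy
  have hq : q.Prime := Fact.out
  have hp : p.Prime := Fact.out
  have hZ : IsPGroup q (Subgroup.zpowers y) :=
    IsPGroup.of_card (n := k) (by rw [Nat.card_zpowers, hk])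
  have hdisj : Disjoint S (Subgroup.zpowers y) := IsPGroup.disjoint_of_ne p q hpq S _ hS hZ
  -- M := S ⊔ ⟨y⟩ is normal
  have hM : S ⊔ Subgroup.zpowers y = S ⊔ Subgroup.normalClosure ({y} : Set G) := by
    apply le_antisymm
    · exact sup_le_sup_left ((Subgroup.zpowers_le).mpr
        (Subgroup.subset_normalClosure (Set.mem_singleton y))) S
    · apply sup_le le_sup_left
      rw [Subgroup.normalClosure, Subgroup.closure_le]
      intro t ht
      rw [Group.mem_conjugatesOfSet_iff] at ht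
      obtain ⟨a, ha, hat⟩ := ht
      rw [Set.mem_singleton_iff] at ha
      subst ha
      rw [isConj_iff] at hat
      obtain ⟨c, rfl⟩ := hat
      have e : c * a * c⁻¹ = a * (a⁻¹ * (c * a * c⁻¹)) := by group
      rw [e]
      exact Subgroup.mul_mem _ (Subgroup.mem_sup_right (Subgroup.mem_zpowers a))
        (Subgroup.mem_sup_left (h c))
  haveI hMn : (S ⊔ Subgroup.zpowers y).Normal := by rw [hM]; infer_instance
  have hZM : Subgroup.zpowers y ≤ S ⊔ Subgroup.zpowers y := le_sup_right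
  have hSM : S ≤ S ⊔ Subgroup.zpowers y := le_sup_left
  have hcardM1 : Nat.card (S ⊔ Subgroup.zpowers y : Subgroup G) = Nat.card S * q ^ k := by
    have h1 := baer_card_mul_relIndex hSM
    have h2 : S.relIndex (S ⊔ Subgroup.zpowers y) = q ^ k := by
      rw [Subgroup.relIndex_sup_left, ← Subgroup.inf_relIndex_right, hdisj.eq_bot,
        Subgroup.relIndex_bot_left, Nat.card_zpowers, hk]
    rw [← h1, h2]
  have hrel : (Subgroup.zpowers y).relIndex (S ⊔ Subgroup.zpowers y) = Nat.card S := by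
    have h1 := baer_card_mul_relIndex hZM
    rw [Nat.card_zpowers, hk, hcardM1, mul_comm] at h1
    exact Nat.eq_of_mul_eq_mul_right (pow_pos hq.pos k) h1
  obtain ⟨n, hn⟩ := IsPGroup.iff_card.mp hS
  have hPp : IsPGroup q ((Subgroup.zpowers y).subgroupOf (S ⊔ Subgroup.zpowers y)) :=
    hZ.comap_subtype
  have hPi : ¬ q ∣ ((Subgroup.zpowers y).subgroupOf (S ⊔ Subgroup.zpowers y)).index := by
    show ¬ q ∣ (Subgroup.zpowers y).relIndex (S ⊔ Subgroup.zpowers y)
    rw [hrel, hn]
    intro hdvd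
    exact hpq ((Nat.prime_dvd_prime_iff_eq hq hp).mp (hq.dvd_of_dvd_pow hdvd)).symm
  have hfr := Sylow.normalizer_sup_eq_top (hPp.toSylow hPi)
  have hPmap : ((hPp.toSylow hPi : Sylow q (S ⊔ Subgroup.zpowers y : Subgroup G)) :
      Subgroup (S ⊔ Subgroup.zpowers y : Subgroup G)).map (S ⊔ Subgroup.zpowers y).subtype
        = Subgroup.zpowers y := by
    show ((Subgroup.zpowers y).subgroupOf (S ⊔ Subgroup.zpowers y)).map
      (S ⊔ Subgroup.zpowers y).subtype = _
    rw [Subgroup.subgroupOf_map_subtype, inf_of_le_left hZM]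
  rw [hPmap] at hfr
  -- normalizer of ⟨y⟩ is inside the centralizer of y
  have hNC : Subgroup.normalizer (Subgroup.zpowers y : Set G) ≤ Subgroup.centralizer ({y} : Set G) := by
    intro g hg
    have h1 : g * y * g⁻¹ ∈ Subgroup.zpowers y :=
      (Subgroup.mem_normalizer_iff.mp hg y).mp (Subgroup.mem_zpowers y)
    have h2 : y⁻¹ * (g * y * g⁻¹) ∈ S ⊓ Subgroup.zpowers y :=
      ⟨h g, Subgroup.mul_mem _ (Subgroup.inv_mem _ (Subgroup.mem_zpowers y)) h1⟩
    rw [hdisj.eq_bot, Subgroup.mem_bot] at h2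
    rw [Subgroup.mem_centralizer_singleton_iff]
    have h3 : g * y * g⁻¹ = y := by
      have : g * y * g⁻¹ = y * (y⁻¹ * (g * y * g⁻¹)) := by group
      rw [this, h2, mul_one]
    have : g * y = g * y * g⁻¹ * g := by group
    rw [this, h3]
  have htop : S ⊔ Subgroup.centralizer ({y} : Set G) = ⊤ := by
    apply top_le_iff.mp
    rw [← hfr]
    apply sup_le
    · exact hNC.trans le_sup_right
    · apply sup_le le_sup_left
      apply le_sup_of_le_right
      rw [Subgroup.zpowers_le, Subgroup.mem_centralizer_singleton_iff]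
  have hex : ∀ g : G, ∃ a ∈ S, a⁻¹ * g ∈ Subgroup.centralizer ({y} : Set G) := by
    intro g
    have hg : g ∈ S ⊔ Subgroup.centralizer ({y} : Set G) := by rw [htop]; trivial
    obtain ⟨s, hs, c, hc, rfl⟩ := Subgroup.mem_sup_of_normal_left.mp hg
    exact ⟨s, hs, by rwa [inv_mul_cancel_left]⟩
  have hidx := baer_relIndex_eq_of_exists S (Subgroup.centralizer ({y} : Set G)) hex
  have hdvd : (Subgroup.centralizer ({y} : Set G)).relIndex S ∣ p ^ n := by
    rw [← hn]; exact Subgroup.relIndex_dvd_card _ _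
  obtain ⟨j, -, hj⟩ := (Nat.dvd_prime_pow hp).mp hdvd
  exact ⟨j, by rw [← hidx, hj]⟩

end Cfsg.Agent.Lib.Helper21
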