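import Mathlib
import Cfsg.Agent.Lib.Helper81.AQDefs
import Cfsg.Agent.Lib.Helper26.OddPCyclic

/-!
# Project AQ (helper81, S3911), piece CYCC (helper21)
-/

set_option autoImplicit false

namespace Cfsg.Agent.Lib.Helper81.AQ

variable {G : Type*} [Group G]

-- piece CYCC
theorem pgroup_cyclic [Finite G] (p : ℕ) [Fact p.Prime] (hp2 : p ≠ 2)
    (h : ∀ Q : Subgroup G, IsPGroup p Q → IsMulCommutative ↥Q → IsCyclic Q)
    (Q : Subgroup G) (hQ : IsPGroup p Q) : IsCyclic Q := by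
  have hp : p.Prime := Fact.out
  have hodd : Odd p := hp.odd_of_ne_two hp2
  apply Cfsg.Agent.Lib.Helper26.isCyclic_of_odd hodd hQ
  intro A hA
  have hinj : Function.Injective Q.subtype := Q.subtype_injective
  have hpg : IsPGroup p (A.map Q.subtype) := (hQ.to_subgroup A).map Q.subtype
  have hcomm : IsMulCommutative (A.map Q.subtype) := by
    refine ⟨⟨?_⟩⟩
    rintro ⟨x, hx⟩ ⟨y, hy⟩
    obtain ⟨a, ha, rfl⟩ := Subgroup.mem_map.mp hx
    obtain ⟨b, hb, rfl⟩ := Subgroup.mem_map.mp hy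
    apply Subtype.ext
    have hab : (⟨a, ha⟩ : A) * ⟨b, hb⟩ = ⟨b, hb⟩ * ⟨a, ha⟩ := hA.is_comm.comm _ _
    have hab' : a * b = b * a := congrArg Subtype.val hab
    show Q.subtype a * Q.subtype b = Q.subtype b * Q.subtype a
    rw [← map_mul, ← map_mul, hab']
  have hcyc : IsCyclic (A.map Q.subtype) := h (A.map Q.subtype) hpg hcomm
  exact (MulEquiv.isCyclic (A.equivMapOfInjective Q.subtype hinj)).mpr hcyc

end Cfsg.Agent.Lib.Helper81.AQ
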