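import Mathlib

/-!
# Double covers of alternating groups from Clifford-type data (abstract part)

Given a ring `A` of characteristic 3 with elements `E i` (`i : Fin n`) satisfying the Clifford
relations `E i * E i = 1`, `E i * E j = -(E j * E i)`, and a set `S` of elements that commute or
anticommute uniformly with the `E i` such that the only elements commuting with all `E i` and all
of `S` are `0, 1, -1`, the subgroup of `Aˣ × Perm (Fin n)` generated by the pairs
`((E i - E j) * (E k - E l), swap i j * swap k l)` is a double cover of the alternating group.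
-/

set_option autoImplicit false

namespace Cfsg.Agent.Lib.Helper21

open Equiv

open scoped commutatorElement

/-- Clifford-type data in a ring `A`. -/
structure CliffData {A : Type*} [Ring A] {n : ℕ} (E : Fin n → A) (S : Set A) : Prop where
  three : (1 + 1 + 1 : A) = 0
  one_ne : (1 : A) ≠ -1
  sq : ∀ i, E i * E i = 1
  anti : ∀ i j, i ≠ j → E i * E j = -(E j * E i)
  comm : ∀ Y ∈ S, (∀ i, E i * Y = Y * E i) ∨ (∀ i, E i * Y = -(Y * E i))
  ker : ∀ X : A, (∀ m, X * E m = E m * X) → (∀ Y ∈ S, X * Y = Y * X) →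
    X = 0 ∨ X = 1 ∨ X = -1

namespace CliffData

variable {A : Type*} [Ring A] {n : ℕ} {E : Fin n → A} {S : Set A}

theorem two_eq (h : CliffData E S) : (1 : A) + 1 = -1 := by
  rw [eq_neg_iff_add_eq_zero]; exact h.three

theorem u_sq (h : CliffData E S) (i j : Fin n) (hij : i ≠ j) :
    (E i - E j) * (E i - E j) = -1 := by
  rw [← h.two_eq]
  simp only [sub_mul, mul_sub]
  rw [h.sq i, h.sq j, h.anti i j hij]
  abel

theorem u_conj (h : CliffData E S) (i j m : Fin n) (hij : i ≠ j) :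
    (E i - E j) * E m = -(E (swap i j m) * (E i - E j)) := by
  by_cases hmi : m = i
  · subst hmi
    rw [swap_apply_left]
    simp only [sub_mul, mul_sub]
    rw [h.sq m, h.sq j]
    abel
  by_cases hmj : m = j
  · subst hmj
    rw [swap_apply_right]
    simp only [sub_mul, mul_sub]
    rw [h.sq m, h.sq i]
    abel
  · rw [swap_apply_of_ne_of_ne hmi hmj]
    simp only [sub_mul, mul_sub]
    rw [h.anti i m (Ne.symm hmi), h.anti j m (Ne.symm hmj)]
    abel

theorem w_conj (h : CliffData E S) (i j k l m : Fin n) (hij : i ≠ j) (hkl : k ≠ l) :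
    (E i - E j) * (E k - E l) * E m
      = E (swap i j (swap k l m)) * ((E i - E j) * (E k - E l)) := by
  rw [mul_assoc, h.u_conj k l m hkl, mul_neg, ← mul_assoc, h.u_conj i j _ hij, neg_mul, neg_neg,
    mul_assoc]

theorem u_comm (h : CliffData E S) (i j : Fin n) (Y : A) (hY : Y ∈ S) :
    (E i - E j) * Y = Y * (E i - E j) ∨ (E i - E j) * Y = -(Y * (E i - E j)) := by
  rcases h.comm Y hY with hc | hc
  · left
    simp only [sub_mul, mul_sub]
    rw [hc i, hc j]
  · right
    simp only [sub_mul, mul_sub]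
    rw [hc i, hc j]
    abel

theorem w_comm (h : CliffData E S) (i j k l : Fin n) (Y : A) (hY : Y ∈ S) :
    (E i - E j) * (E k - E l) * Y = Y * ((E i - E j) * (E k - E l)) := by
  rcases h.comm Y hY with hc | hc
  · have h1 : ∀ a b : Fin n, (E a - E b) * Y = Y * (E a - E b) := by
      intro a b
      simp only [sub_mul, mul_sub]
      rw [hc a, hc b]
    rw [mul_assoc, h1 k l, ← mul_assoc, h1 i j, mul_assoc]
  · have h1 : ∀ a b : Fin n, (E a - E b) * Y = -(Y * (E a - E b)) := by
      intro a b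
      simp only [sub_mul, mul_sub]
      rw [hc a, hc b]
      abel
    rw [mul_assoc, h1 k l, mul_neg, ← mul_assoc, h1 i j, neg_mul, neg_neg, mul_assoc]

/-- The unit `(E i - E j) * (E k - E l)`. -/
def wUnit (h : CliffData E S) (i j k l : Fin n) (hij : i ≠ j) (hkl : k ≠ l) : Aˣ where
  val := (E i - E j) * (E k - E l)
  inv := (E k - E l) * (E i - E j)
  val_inv := by
    rw [mul_assoc, ← mul_assoc (E k - E l), h.u_sq k l hkl, neg_one_mul, mul_neg, h.u_sq i j hij,
      neg_neg]
  inv_val := by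
    rw [mul_assoc, ← mul_assoc (E i - E j), h.u_sq i j hij, neg_one_mul, mul_neg, h.u_sq k l hkl,
      neg_neg]

@[simp] theorem wUnit_val (h : CliffData E S) (i j k l : Fin n) (hij : i ≠ j) (hkl : k ≠ l) :
    ((h.wUnit i j k l hij hkl : Aˣ) : A) = (E i - E j) * (E k - E l) := rfl

/-- The generating set of the double cover. -/
def gens (h : CliffData E S) : Set (Aˣ × Perm (Fin n)) :=
  {g | ∃ i j k l, ∃ (hij : i ≠ j) (hkl : k ≠ l),
    g = (h.wUnit i j k l hij hkl, swap i j * swap k l)}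

/-- The double cover, as a subgroup of `Aˣ × Perm (Fin n)`. -/
def grp (h : CliffData E S) : Subgroup (Aˣ × Perm (Fin n)) := Subgroup.closure h.gens

theorem gen_mem (h : CliffData E S) (i j k l : Fin n) (hij : i ≠ j) (hkl : k ≠ l) :
    ((h.wUnit i j k l hij hkl, swap i j * swap k l) : Aˣ × Perm (Fin n)) ∈ h.grp :=
  Subgroup.subset_closure ⟨i, j, k, l, hij, hkl, rfl⟩

theorem grp_inv (h : CliffData E S) (g : Aˣ × Perm (Fin n)) (hg : g ∈ h.grp) :
    (∀ m, (g.1 : A) * E m = E (g.2 m) * g.1) ∧ (∀ Y ∈ S, (g.1 : A) * Y = Y * g.1) ∧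
      g.2 ∈ alternatingGroup (Fin n) := by
  induction hg using Subgroup.closure_induction with
  | mem x hx =>
    obtain ⟨i, j, k, l, hij, hkl, rfl⟩ := hx
    refine ⟨fun m => ?_, fun Y hY => ?_, ?_⟩
    · exact h.w_conj i j k l m hij hkl
    · exact h.w_comm i j k l Y hY
    · rw [Equiv.Perm.mem_alternatingGroup, map_mul, Equiv.Perm.sign_swap hij,
        Equiv.Perm.sign_swap hkl]
      rfl
  | one =>
    refine ⟨fun m => ?_, fun Y hY => ?_, one_mem _⟩
    · simp
    · simp
  | mul x y _ _ hx hy =>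
    refine ⟨fun m => ?_, fun Y hY => ?_, mul_mem hx.2.2 hy.2.2⟩
    · show ((x.1 * y.1 : Aˣ) : A) * E m = E ((x.2 * y.2) m) * ((x.1 * y.1 : Aˣ) : A)
      rw [Units.val_mul, mul_assoc, hy.1 m, ← mul_assoc, hx.1 (y.2 m), mul_assoc]
      rfl
    · show ((x.1 * y.1 : Aˣ) : A) * Y = Y * ((x.1 * y.1 : Aˣ) : A)
      rw [Units.val_mul, mul_assoc, hy.2.1 Y hY, ← mul_assoc, hx.2.1 Y hY, mul_assoc]
  | inv x _ hx =>
    refine ⟨fun m => ?_, fun Y hY => ?_, inv_mem hx.2.2⟩
    · show ((x.1⁻¹ : Aˣ) : A) * E m = E (x.2⁻¹ m) * ((x.1⁻¹ : Aˣ) : A)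
      have e : x.2 (x.2⁻¹ m) = m := x.2.apply_symm_apply m
      rw [Units.inv_mul_eq_iff_eq_mul, ← mul_assoc, hx.1 (x.2⁻¹ m), e,
        mul_assoc, Units.mul_inv, mul_one]
    · show ((x.1⁻¹ : Aˣ) : A) * Y = Y * ((x.1⁻¹ : Aˣ) : A)
      rw [Units.inv_mul_eq_iff_eq_mul, ← mul_assoc, hx.2.1 Y hY, mul_assoc, Units.mul_inv,
        mul_one]

/-- Every even permutation is the second component of an element of the cover. -/
theorem grp_surj (h : CliffData E S) (σ : Perm (Fin n)) (hσ : σ ∈ alternatingGroup (Fin n)) :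
    ∃ X : Aˣ, (X, σ) ∈ h.grp := by
  suffices hind : ∀ (m : ℕ) (l : List (Perm (Fin n))) (_ : ∀ g, g ∈ l → Equiv.Perm.IsSwap g)
      (_ : l.length = 2 * m), ∃ X : Aˣ, (X, l.prod) ∈ h.grp by
    obtain ⟨l, rfl, hl⟩ := Equiv.Perm.truncSwapFactors σ
    obtain ⟨m, hm⟩ := (Equiv.Perm.prod_list_swap_mem_alternatingGroup_iff_even_length hl).1 hσ
    rw [← two_mul] at hm
    exact hind m l hl hm
  intro m
  induction m with
  | zero =>
    intro l hl hm
    rw [List.length_eq_zero_iff.1 hm]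
    exact ⟨1, one_mem _⟩
  | succ m ih =>
    intro l hl hm
    rw [Nat.mul_succ] at hm
    obtain ⟨a, l, rfl⟩ := l.exists_of_length_succ hm
    rw [List.length_cons, Nat.succ_inj] at hm
    obtain ⟨b, l, rfl⟩ := l.exists_of_length_succ hm
    rw [List.length_cons, Nat.succ_inj] at hm
    obtain ⟨X, hX⟩ := ih l (fun g hg => hl g (List.mem_cons_of_mem _ (List.mem_cons_of_mem _ hg))) hm
    obtain ⟨i, j, hij, rfl⟩ := hl a List.mem_cons_self
    obtain ⟨k, l', hkl, rfl⟩ := hl b (List.mem_cons_of_mem _ List.mem_cons_self)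
    refine ⟨h.wUnit i j k l' hij hkl * X, ?_⟩
    rw [List.prod_cons, List.prod_cons, ← mul_assoc]
    exact mul_mem (h.gen_mem i j k l' hij hkl) hX

/-- Two lifts of commuting double transpositions anticommute. -/
theorem w_anticomm (h : CliffData E S) (i j k l : Fin n) (hij : i ≠ j) (hik : i ≠ k) (hil : i ≠ l)
    (hjk : j ≠ k) (hjl : j ≠ l) (hkl : k ≠ l) :
    (E i - E j) * (E k - E l) * ((E i - E k) * (E j - E l))
      = -((E i - E k) * (E j - E l) * ((E i - E j) * (E k - E l))) := by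
  have hc := fun m => h.w_conj i j k l m hij hkl
  have e1 : swap i j (swap k l i) = j := by
    rw [swap_apply_of_ne_of_ne hik hil, swap_apply_left]
  have e2 : swap i j (swap k l k) = l := by
    rw [swap_apply_left, swap_apply_of_ne_of_ne (Ne.symm hil) (Ne.symm hjl)]
  have e3 : swap i j (swap k l j) = i := by
    rw [swap_apply_of_ne_of_ne hjk hjl, swap_apply_right]
  have e4 : swap i j (swap k l l) = k := by
    rw [swap_apply_right, swap_apply_of_ne_of_ne (Ne.symm hik) (Ne.symm hjk)]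
  have h1 : (E i - E j) * (E k - E l) * (E i - E k)
      = (E j - E l) * ((E i - E j) * (E k - E l)) := by
    rw [mul_sub ((E i - E j) * (E k - E l)), hc i, hc k, e1, e2]
    exact (sub_mul _ _ _).symm
  have h2 : (E i - E j) * (E k - E l) * (E j - E l)
      = (E i - E k) * ((E i - E j) * (E k - E l)) := by
    rw [mul_sub ((E i - E j) * (E k - E l)), hc j, hc l, e3, e4]
    exact (sub_mul _ _ _).symm
  have h3 : (E j - E l) * (E i - E k) = -((E i - E k) * (E j - E l)) := by
    simp only [sub_mul, mul_sub]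
    rw [h.anti i j hij, h.anti i l hil, h.anti k j (Ne.symm hjk), h.anti k l hkl]
    abel
  rw [← mul_assoc, h1, mul_assoc (E j - E l), h2, ← mul_assoc (E j - E l), h3, neg_mul, mul_assoc]

theorem swap_comm_aux {n : ℕ} (i j k l : Fin n) (hij : i ≠ j) (hik : i ≠ k) (hil : i ≠ l)
    (hjk : j ≠ k) (hjl : j ≠ l) (hkl : k ≠ l) :
    (swap i j * swap k l) * (swap i k * swap j l) = (swap i k * swap j l) * (swap i j * swap k l) := by
  refine Equiv.ext fun x => ?_
  simp only [Equiv.Perm.mul_apply]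
  by_cases hxi : x = i
  · subst hxi
    simp [swap_apply_of_ne_of_ne, hij, hik, hil, hjk, hjl, hkl, Ne.symm hij, Ne.symm hik,
      Ne.symm hil, Ne.symm hjk, Ne.symm hjl, Ne.symm hkl]
  by_cases hxj : x = j
  · subst hxj
    simp [swap_apply_of_ne_of_ne, hij, hik, hil, hjk, hjl, hkl, Ne.symm hij, Ne.symm hik,
      Ne.symm hil, Ne.symm hjk, Ne.symm hjl, Ne.symm hkl]
  by_cases hxk : x = k
  · subst hxk
    simp [swap_apply_of_ne_of_ne, hij, hik, hil, hjk, hjl, hkl, Ne.symm hij, Ne.symm hik,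
      Ne.symm hil, Ne.symm hjk, Ne.symm hjl, Ne.symm hkl]
  by_cases hxl : x = l
  · subst hxl
    simp [swap_apply_of_ne_of_ne, hij, hik, hil, hjk, hjl, hkl, Ne.symm hij, Ne.symm hik,
      Ne.symm hil, Ne.symm hjk, Ne.symm hjl, Ne.symm hkl]
  · simp [swap_apply_of_ne_of_ne, hxi, hxj, hxk, hxl]

/-- The main abstract theorem: the group `h.grp` is a double cover of `alternatingGroup (Fin n)`
whose central involution is a commutator. -/
theorem main (h : CliffData E S) (hn : 4 ≤ n) :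
    ∃ (z : h.grp) (_ : z ∈ Subgroup.center h.grp), orderOf z = 2 ∧ z ∈ commutator h.grp ∧
      ∃ _ : (Subgroup.zpowers z).Normal,
        Nonempty (h.grp ⧸ Subgroup.zpowers z ≃* alternatingGroup (Fin n)) := by
  classical
  let i0 : Fin n := ⟨0, by omega⟩
  let i1 : Fin n := ⟨1, by omega⟩
  let i2 : Fin n := ⟨2, by omega⟩
  let i3 : Fin n := ⟨3, by omega⟩
  have h01 : i0 ≠ i1 := by simp [i0, i1, Fin.ext_iff]
  have h02 : i0 ≠ i2 := by simp [i0, i2, Fin.ext_iff]
  have h03 : i0 ≠ i3 := by simp [i0, i3, Fin.ext_iff]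
  have h12 : i1 ≠ i2 := by simp [i1, i2, Fin.ext_iff]
  have h13 : i1 ≠ i3 := by simp [i1, i3, Fin.ext_iff]
  have h23 : i2 ≠ i3 := by simp [i2, i3, Fin.ext_iff]
  let a : h.grp := ⟨_, h.gen_mem i0 i1 i2 i3 h01 h23⟩
  let b : h.grp := ⟨_, h.gen_mem i0 i2 i1 i3 h02 h13⟩
  have hz0 : ((-1 : Aˣ), (1 : Perm (Fin n)))
      = (a : Aˣ × Perm (Fin n)) * b * (a : Aˣ × Perm (Fin n))⁻¹ * (b : Aˣ × Perm (Fin n))⁻¹ := by
    rw [eq_mul_inv_iff_mul_eq, eq_mul_inv_iff_mul_eq]
    refine Prod.ext (Units.ext ?_) ?_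
    · show (-1 : A) * ((E i0 - E i2) * (E i1 - E i3)) * ((E i0 - E i1) * (E i2 - E i3))
        = (E i0 - E i1) * (E i2 - E i3) * ((E i0 - E i2) * (E i1 - E i3))
      rw [h.w_anticomm i0 i1 i2 i3 h01 h02 h03 h12 h13 h23, neg_one_mul, neg_mul]
    · show 1 * (swap i0 i2 * swap i1 i3) * (swap i0 i1 * swap i2 i3)
        = (swap i0 i1 * swap i2 i3) * (swap i0 i2 * swap i1 i3)
      rw [one_mul, swap_comm_aux i0 i1 i2 i3 h01 h02 h03 h12 h13 h23]
  have hzmem : ((-1 : Aˣ), (1 : Perm (Fin n))) ∈ h.grp := by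
    rw [hz0]
    exact mul_mem (mul_mem (mul_mem a.2 b.2) (inv_mem a.2)) (inv_mem b.2)
  let z : h.grp := ⟨_, hzmem⟩
  have hzc : z = ⁅a, b⁆ := Subtype.ext (by rw [commutatorElement_def]; exact hz0)
  have hzcen : z ∈ Subgroup.center h.grp := by
    refine Subgroup.mem_center_iff.2 fun g => Subtype.ext (Prod.ext (Units.ext ?_) ?_)
    · show ((g : Aˣ × Perm (Fin n)).1 : A) * ((-1 : Aˣ) : A)
        = ((-1 : Aˣ) : A) * ((g : Aˣ × Perm (Fin n)).1 : A)
      simp
    · show (g : Aˣ × Perm (Fin n)).2 * 1 = 1 * (g : Aˣ × Perm (Fin n)).2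
      simp
  have hz2 : z ^ 2 = 1 := by
    refine Subtype.ext (Prod.ext (Units.ext ?_) ?_)
    · show (((-1 : Aˣ) ^ 2 : Aˣ) : A) = 1
      simp
    · show (1 : Perm (Fin n)) ^ 2 = 1
      simp
  have hz1 : z ≠ 1 := by
    intro hz1
    have e : ((-1 : Aˣ) : A) = 1 := by
      have := congrArg (fun g : h.grp => ((g : Aˣ × Perm (Fin n)).1 : A)) hz1
      exact this
    exact h.one_ne (by simpa using e.symm)
  let φ : h.grp →* Perm (Fin n) := (MonoidHom.snd Aˣ (Perm (Fin n))).comp h.grp.subtype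
  have hφ : ∀ g : h.grp, φ g = (g : Aˣ × Perm (Fin n)).2 := fun g => rfl
  have hrange : φ.range = alternatingGroup (Fin n) := by
    ext σ
    constructor
    · rintro ⟨g, rfl⟩
      exact (h.grp_inv g g.2).2.2
    · intro hσ
      obtain ⟨X, hX⟩ := h.grp_surj σ hσ
      exact ⟨⟨(X, σ), hX⟩, rfl⟩
  have hker : φ.ker = Subgroup.zpowers z := by
    apply le_antisymm
    · intro g hg
      rw [MonoidHom.mem_ker, hφ] at hg
      obtain ⟨hg1, hg2, -⟩ := h.grp_inv g g.2
      have hX := h.ker ((g : Aˣ × Perm (Fin n)).1 : A) (fun m => by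
        have := hg1 m
        rw [hg] at this
        exact this) (fun Y hY => hg2 Y hY)
      rcases hX with hX | hX | hX
      · exfalso
        have h10 : (1 : A) = 0 := by
          rw [← Units.mul_inv (g : Aˣ × Perm (Fin n)).1, hX, zero_mul]
        apply h.one_ne
        rw [h10, neg_zero]
      · have : g = 1 := Subtype.ext (Prod.ext (Units.ext hX) hg)
        rw [this]
        exact one_mem _
      · have : g = z := by
          refine Subtype.ext (Prod.ext (Units.ext ?_) hg)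
          rw [hX]
          simp [z]
        rw [this]
        exact Subgroup.mem_zpowers z
    · rw [Subgroup.zpowers_le]
      rw [MonoidHom.mem_ker, hφ]
  have hN : (Subgroup.zpowers z).Normal := by
    rw [← hker]
    infer_instance
  refine ⟨z, hzcen, orderOf_eq_prime hz2 hz1, ?_, hN, ⟨?_⟩⟩
  · rw [commutator_def, hzc]
    exact Subgroup.commutator_mem_commutator (Subgroup.mem_top a) (Subgroup.mem_top b)
  · exact (QuotientGroup.quotientMulEquivOfEq hker.symm).trans
      ((QuotientGroup.quotientKerEquivRange φ).trans (MulEquiv.subgroupCongr hrange))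

end CliffData


end Cfsg.Agent.Lib.Helper21
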