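import Cfsg.Agent.Lib.Helper21.DCov

/-!
# A concrete model of the Clifford-type data: the twisted group algebra of `(ZMod 2)^n`
over `ZMod 3`, acting on itself.
-/

set_option autoImplicit false

namespace Cfsg.Agent.Lib.Helper21

open Equiv

/-- The sign character `ZMod 2 → ZMod 3`. -/
def dcSg (x : ZMod 2) : ZMod 3 := if x = 0 then 1 else -1

theorem dcSg_add : ∀ x y : ZMod 2, dcSg (x + y) = dcSg x * dcSg y := by decide

theorem dcSg_zero : dcSg 0 = 1 := by decide

theorem dcSg_one : dcSg 1 = -1 := by decide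

theorem dcSg_mul_self : ∀ x : ZMod 2, dcSg x * dcSg x = 1 := by decide

theorem dcSg_ne : ∀ x y : ZMod 2, x ≠ y → dcSg x = -dcSg y := by decide

variable {n : ℕ}

/-- The (non-symmetric) bilinear form `β(S,T) = ∑_{k<i} S_i T_k`. -/
def dcBet (S T : Fin n → ZMod 2) : ZMod 2 := ∑ i, ∑ k, if k < i then S i * T k else 0

theorem dcBet_add_left (S S' T : Fin n → ZMod 2) :
    dcBet (S + S') T = dcBet S T + dcBet S' T := by
  simp only [dcBet, Pi.add_apply, add_mul, ← Finset.sum_add_distrib]
  refine Finset.sum_congr rfl fun i _ => Finset.sum_congr rfl fun k _ => ?_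
  split_ifs <;> simp

theorem dcBet_add_right (S T T' : Fin n → ZMod 2) :
    dcBet S (T + T') = dcBet S T + dcBet S T' := by
  simp only [dcBet, Pi.add_apply, mul_add, ← Finset.sum_add_distrib]
  refine Finset.sum_congr rfl fun i _ => Finset.sum_congr rfl fun k _ => ?_
  split_ifs <;> simp

theorem dcBet_zero_left (T : Fin n → ZMod 2) : dcBet 0 T = 0 := by
  simp [dcBet]

theorem dcBet_single_left (i : Fin n) (T : Fin n → ZMod 2) :
    dcBet (Pi.single i 1) T = ∑ k, if k < i then T k else 0 := by
  unfold dcBet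
  rw [Finset.sum_eq_single i]
  · simp
  · intro b _ hb
    simp [Pi.single_apply, hb]
  · simp

theorem dcBet_single_right (i : Fin n) (T : Fin n → ZMod 2) :
    dcBet T (Pi.single i 1) = ∑ k, if i < k then T k else 0 := by
  unfold dcBet
  refine Finset.sum_congr rfl fun k _ => ?_
  rw [Finset.sum_eq_single i]
  · simp
  · intro b _ hb
    simp [Pi.single_apply, hb]
  · simp

theorem dcBet_single_single (i j : Fin n) :
    dcBet (Pi.single i (1 : ZMod 2)) (Pi.single j 1) = if j < i then 1 else 0 := by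
  rw [dcBet_single_left, Finset.sum_eq_single j]
  · simp
  · intro b _ hb
    simp [Pi.single_apply, hb]
  · simp

theorem dc_add_self (T : Fin n → ZMod 2) : T + T = 0 :=
  funext fun k => CharTwo.add_self_eq_zero (T k)

/-- Left multiplication operators of the twisted group algebra. -/
def dcL (S : Fin n → ZMod 2) : Module.End (ZMod 3) ((Fin n → ZMod 2) → ZMod 3) where
  toFun f := fun T => dcSg (dcBet S T) * f (T + S)
  map_add' f g := by
    ext T
    simp [mul_add]
  map_smul' c f := by
    ext T
    simp [mul_left_comm]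

/-- Right multiplication operators of the twisted group algebra. -/
def dcR (S : Fin n → ZMod 2) : Module.End (ZMod 3) ((Fin n → ZMod 2) → ZMod 3) where
  toFun f := fun T => dcSg (dcBet T S) * f (T + S)
  map_add' f g := by
    ext T
    simp [mul_add]
  map_smul' c f := by
    ext T
    simp [mul_left_comm]

/-- The parity operator. -/
def dcP : Module.End (ZMod 3) ((Fin n → ZMod 2) → ZMod 3) where
  toFun f := fun T => dcSg (∑ k, T k) * f T
  map_add' f g := by
    ext T
    simp [mul_add]
  map_smul' c f := by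
    ext T
    simp [mul_left_comm]

theorem dcL_apply (S : Fin n → ZMod 2) (f : (Fin n → ZMod 2) → ZMod 3) (T : Fin n → ZMod 2) :
    dcL S f T = dcSg (dcBet S T) * f (T + S) := rfl

theorem dcR_apply (S : Fin n → ZMod 2) (f : (Fin n → ZMod 2) → ZMod 3) (T : Fin n → ZMod 2) :
    dcR S f T = dcSg (dcBet T S) * f (T + S) := rfl

theorem dcP_apply (f : (Fin n → ZMod 2) → ZMod 3) (T : Fin n → ZMod 2) :
    dcP f T = dcSg (∑ k, T k) * f T := rfl

theorem dcL_mul (S U : Fin n → ZMod 2) : dcL S * dcL U = dcSg (dcBet U S) • dcL (S + U) := by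
  refine LinearMap.ext fun f => funext fun T => ?_
  rw [Module.End.mul_apply, dcL_apply, dcL_apply, LinearMap.smul_apply, Pi.smul_apply,
    dcL_apply, dcBet_add_right, dcBet_add_left, dcSg_add, dcSg_add, smul_eq_mul, add_assoc]
  ring

theorem dcL_zero : dcL (0 : Fin n → ZMod 2) = 1 := by
  refine LinearMap.ext fun f => funext fun T => ?_
  rw [dcL_apply, dcBet_zero_left, dcSg_zero, one_mul, add_zero]
  rfl

theorem dcL_comm_dcR (S U : Fin n → ZMod 2) : dcL S * dcR U = dcR U * dcL S := by
  refine LinearMap.ext fun f => funext fun T => ?_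
  rw [Module.End.mul_apply, Module.End.mul_apply, dcL_apply, dcR_apply, dcR_apply, dcL_apply,
    dcBet_add_right, dcBet_add_left, dcSg_add, dcSg_add, add_right_comm]
  ring

theorem dcL_dcP (S : Fin n → ZMod 2) :
    dcL S * dcP = dcSg (∑ k, S k) • (dcP * dcL S) := by
  refine LinearMap.ext fun f => funext fun T => ?_
  rw [Module.End.mul_apply, dcL_apply, dcP_apply, LinearMap.smul_apply, Pi.smul_apply,
    Module.End.mul_apply, dcP_apply, dcL_apply, smul_eq_mul]
  have : ∑ k, (T + S) k = ∑ k, T k + ∑ k, S k := by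
    simp [Finset.sum_add_distrib]
  rw [this, dcSg_add]
  ring

theorem dc_neg_one_smul (X : Module.End (ZMod 3) ((Fin n → ZMod 2) → ZMod 3)) :
    (-1 : ZMod 3) • X = -X := by
  refine LinearMap.ext fun f => funext fun T => ?_
  simp

/-- The generators `E i`. -/
def dcE (i : Fin n) : Module.End (ZMod 3) ((Fin n → ZMod 2) → ZMod 3) := dcL (Pi.single i 1)

theorem dcE_sq (i : Fin n) : dcE i * dcE i = (1 : Module.End (ZMod 3) ((Fin n → ZMod 2) → ZMod 3)) := by
  unfold dcE
  rw [dcL_mul, dcBet_single_single, if_neg (lt_irrefl i), dcSg_zero, one_smul, dc_add_self, dcL_zero]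

theorem dcE_anti (i j : Fin n) (hij : i ≠ j) : dcE i * dcE j = -(dcE j * dcE i) := by
  unfold dcE
  rw [dcL_mul, dcL_mul, dcBet_single_single, dcBet_single_single, add_comm (Pi.single j 1)]
  rcases lt_or_gt_of_ne hij with hlt | hgt
  · rw [if_pos hlt, if_neg (not_lt.2 hlt.le), dcSg_one, dcSg_zero, dc_neg_one_smul, one_smul]
  · rw [if_neg (not_lt.2 hgt.le), if_pos hgt, dcSg_one, dcSg_zero, dc_neg_one_smul, one_smul,
      neg_neg]

theorem dcE_dcP (i : Fin n) : dcE i * dcP = -(dcP * dcE i) := by
  unfold dcE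
  rw [dcL_dcP]
  have : ∑ k, (Pi.single i (1 : ZMod 2) : Fin n → ZMod 2) k = 1 := by
    rw [Finset.sum_eq_single i]
    · simp
    · intro b _ hb
      simp [Pi.single_apply, hb]
    · simp
  rw [this, dcSg_one, dc_neg_one_smul]

theorem dc_eq_of_add_eq_zero (T S : Fin n → ZMod 2) (h : T + S = 0) : T = S := by
  have h1 : T + S + S = T := by rw [add_assoc, dc_add_self, add_zero]
  rw [← h1, h, zero_add]

/-- The basis vectors. -/
def dcD (U : Fin n → ZMod 2) : (Fin n → ZMod 2) → ZMod 3 := Pi.single U 1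

theorem dcD_apply (U T : Fin n → ZMod 2) : dcD U T = if T = U then 1 else 0 := by
  unfold dcD
  rw [Pi.single_apply]

theorem dcP_D0 : dcP (dcD (0 : Fin n → ZMod 2)) = dcD 0 := by
  funext T
  rw [dcP_apply, dcD_apply]
  by_cases hT : T = 0
  · subst hT
    simp [dcSg_zero]
  · simp [hT]

theorem dcL_D0 (S : Fin n → ZMod 2) : dcL S (dcD 0) = dcR S (dcD 0) := by
  funext T
  rw [dcL_apply, dcR_apply, dcD_apply]
  by_cases hT : T + S = 0
  · have : T = S := dc_eq_of_add_eq_zero T S hT
    subst this
    rfl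
  · simp [hT]

theorem dcR_D0 (U : Fin n → ZMod 2) : dcR U (dcD 0) = dcSg (dcBet U U) • dcD U := by
  funext T
  rw [dcR_apply, Pi.smul_apply, smul_eq_mul, dcD_apply, dcD_apply]
  by_cases hT : T = U
  · subst hT
    simp [dc_add_self]
  · have : T + U ≠ 0 := fun h => hT (dc_eq_of_add_eq_zero T U h)
    simp [hT, this]

theorem dc_sum_split (i : Fin n) (T : Fin n → ZMod 2) :
    ∑ k, T k = (∑ k, if k < i then T k else 0) + (∑ k, if i < k then T k else 0) + T i := by
  have : T i = ∑ k, if k = i then T k else 0 := by simp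
  rw [this, ← Finset.sum_add_distrib, ← Finset.sum_add_distrib]
  refine Finset.sum_congr rfl fun k _ => ?_
  rcases lt_trichotomy k i with hk | hk | hk
  · simp [hk, hk.ne, not_lt.2 hk.le]
  · subst hk
    simp
  · simp [hk, hk.ne', not_lt.2 hk.le]

theorem dc_ker (X : Module.End (ZMod 3) ((Fin n → ZMod 2) → ZMod 3))
    (hE : ∀ m, X * dcE m = dcE m * X) (hR : ∀ U, X * dcR U = dcR U * X)
    (hP : X * dcP = dcP * X) : X = 0 ∨ X = 1 ∨ X = -1 := by
  obtain ⟨v, hv⟩ : ∃ v, v = X (dcD 0) := ⟨_, rfl⟩
  have h1 : dcP v = v := by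
    have := congrArg (fun Y : Module.End (ZMod 3) ((Fin n → ZMod 2) → ZMod 3) => Y (dcD 0)) hP
    simp only [Module.End.mul_apply] at this
    rw [dcP_D0, ← hv] at this
    exact this.symm
  have h2 : ∀ T : Fin n → ZMod 2, ∑ k, T k ≠ 0 → v T = 0 := by
    intro T hT
    have := congrFun h1 T
    rw [dcP_apply] at this
    have hs : dcSg (∑ k, T k) = -1 := by
      have : ∑ k, T k = 1 := by
        revert hT
        generalize ∑ k, T k = x
        revert x
        decide
      rw [this, dcSg_one]
    rw [hs] at this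
    revert this
    generalize v T = y
    revert y
    decide
  have h3 : ∀ i : Fin n, dcE i v = dcR (Pi.single i 1) v := by
    intro i
    have a1 := congrArg (fun Y : Module.End (ZMod 3) ((Fin n → ZMod 2) → ZMod 3) => Y (dcD 0))
      (hE i)
    have a2 := congrArg (fun Y : Module.End (ZMod 3) ((Fin n → ZMod 2) → ZMod 3) => Y (dcD 0))
      (hR (Pi.single i 1))
    simp only [Module.End.mul_apply] at a1 a2
    rw [hv, ← a1, ← a2]
    unfold dcE
    rw [dcL_D0]
  have h4 : ∀ (T : Fin n → ZMod 2) (i : Fin n), ∑ k, T k = 0 → T i ≠ 0 → v T = 0 := by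
    intro T i hT hi
    have := congrFun (h3 i) (T + Pi.single i 1)
    unfold dcE at this
    rw [dcL_apply, dcR_apply, add_assoc, dc_add_self, add_zero] at this
    have hne : dcBet (Pi.single i 1) (T + Pi.single i 1)
        ≠ dcBet (T + Pi.single i 1) (Pi.single i 1) := by
      rw [dcBet_add_right, dcBet_add_left]
      intro h
      have h' : dcBet (Pi.single i 1) T = dcBet T (Pi.single i 1) := add_right_cancel h
      rw [dcBet_single_left, dcBet_single_right] at h'
      have htot := dc_sum_split i T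
      rw [hT, h', CharTwo.add_self_eq_zero, zero_add] at htot
      exact hi htot.symm
    rw [dcSg_ne _ _ hne] at this
    have hs := dcSg_mul_self (dcBet (T + Pi.single i 1) (Pi.single i 1))
    revert this hs
    generalize dcSg (dcBet (T + Pi.single i 1) (Pi.single i 1)) = s
    generalize v T = y
    revert s y
    decide
  have h5 : ∀ T : Fin n → ZMod 2, T ≠ 0 → v T = 0 := by
    intro T hT
    by_cases hs : ∑ k, T k = 0
    · obtain ⟨i, hi⟩ : ∃ i, T i ≠ 0 := by
        by_contra hcon
        push Not at hcon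
        exact hT (funext hcon)
      exact h4 T i hs hi
    · exact h2 T hs
  have h6 : v = v 0 • dcD 0 := by
    funext T
    rw [Pi.smul_apply, smul_eq_mul, dcD_apply]
    by_cases hT : T = 0
    · subst hT
      simp
    · rw [h5 T hT]
      simp [hT]
  have h7 : ∀ U : Fin n → ZMod 2, X (dcD U) = v 0 • dcD U := by
    intro U
    have a2 := congrArg (fun Y : Module.End (ZMod 3) ((Fin n → ZMod 2) → ZMod 3) => Y (dcD 0))
      (hR U)
    simp only [Module.End.mul_apply] at a2
    rw [dcR_D0, map_smul, ← hv] at a2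
    have hs := dcSg_mul_self (dcBet U U)
    have a3 := congrArg (fun w => dcSg (dcBet U U) • w) a2
    simp only [smul_smul] at a3
    rw [hs, one_smul] at a3
    rw [a3]
    conv_lhs => rw [h6]
    rw [map_smul, dcR_D0, smul_smul, smul_smul, mul_right_comm, hs, one_mul]
  have h8 : X = v 0 • (1 : Module.End (ZMod 3) ((Fin n → ZMod 2) → ZMod 3)) := by
    apply LinearMap.pi_ext
    intro U x
    have : (Pi.single U x : (Fin n → ZMod 2) → ZMod 3) = x • dcD U := by
      funext T
      simp [dcD_apply, Pi.single_apply]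
    rw [this, map_smul, h7, map_smul, LinearMap.smul_apply]
    rfl
  have h9 : ∀ c : ZMod 3, c = 0 ∨ c = 1 ∨ c = -1 := by decide
  rcases h9 (v 0) with hc | hc | hc
  · left
    rw [h8, hc, zero_smul]
  · right; left
    rw [h8, hc, one_smul]
  · right; right
    rw [h8, hc, dc_neg_one_smul]

theorem dc_cliffData (n : ℕ) :
    CliffData (dcE (n := n)) (Set.range (dcR (n := n)) ∪ {dcP}) where
  three := by
    refine LinearMap.ext fun f => funext fun T => ?_
    have : ∀ y : ZMod 3, y + y + y = 0 := by decide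
    simpa using this (f T)
  one_ne := by
    intro h
    have := congrFun (congrArg
      (fun Y : Module.End (ZMod 3) ((Fin n → ZMod 2) → ZMod 3) => Y (dcD 0)) h) 0
    simp [dcD_apply] at this
    have h31 : (1 : ZMod 3) ≠ -1 := by decide
    exact h31 this
  sq := dcE_sq
  anti := dcE_anti
  comm := by
    rintro Y (⟨U, rfl⟩ | rfl)
    · left
      intro i
      exact dcL_comm_dcR _ _
    · right
      intro i
      exact dcE_dcP i
  ker := by
    intro X hE hS
    exact dc_ker X hE (fun U => hS _ (Or.inl ⟨U, rfl⟩)) (hS _ (Or.inr rfl))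

/-- Existence of a double cover of the alternating group of degree `n ≥ 4` whose central
involution lies in the commutator subgroup. -/
theorem dc_exists (n : ℕ) (hn : 4 ≤ n) :
    ∃ (Γ : Type) (_ : Group Γ) (_ : Finite Γ) (z : Γ) (_ : z ∈ Subgroup.center Γ),
      orderOf z = 2 ∧ z ∈ commutator Γ ∧ ∃ _ : (Subgroup.zpowers z).Normal,
        Nonempty (Γ ⧸ Subgroup.zpowers z ≃* alternatingGroup (Fin n)) := by
  have h := dc_cliffData n
  haveI : Finite (Module.End (ZMod 3) ((Fin n → ZMod 2) → ZMod 3)) :=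
    Finite.of_injective (fun f : Module.End (ZMod 3) ((Fin n → ZMod 2) → ZMod 3) =>
      (f : ((Fin n → ZMod 2) → ZMod 3) → ((Fin n → ZMod 2) → ZMod 3))) DFunLike.coe_injective
  obtain ⟨z, hz, h1, h2, hN, h3⟩ := h.main hn
  exact ⟨h.grp, inferInstance, inferInstance, z, hz, h1, h2, hN, h3⟩

end Cfsg.Agent.Lib.Helper21
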