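import Mathlib
import Cfsg.Prelude.Def_Characters
import Cfsg.Agent.Lib.Helper4.CharEquiv
import Cfsg.Agent.Lib.Helper5.CharInt
import Cfsg.Agent.Lib.Helper70.SchurTransfer

set_option autoImplicit false

namespace Cfsg.Agent.Lib.Helper21

open Cfsg

section Scalars

variable {V : Type*} [AddCommGroup V] [Module ℂ V]

/-- Scalar units of the endomorphism ring. -/
def sc : ℂˣ →* (Module.End ℂ V)ˣ := Units.map (algebraMap ℂ (Module.End ℂ V)).toMonoidHom

theorem sc_coe (c : ℂˣ) :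
    ((sc c : (Module.End ℂ V)ˣ) : Module.End ℂ V) = (c : ℂ) • (1 : Module.End ℂ V) := by
  simp [sc, Algebra.algebraMap_eq_smul_one]

theorem sc_comm (c : ℂˣ) (T : (Module.End ℂ V)ˣ) : sc c * T = T * sc c := by
  apply Units.ext
  simp [sc_coe]

theorem sc_injective [Nontrivial V] :
    Function.Injective (sc : ℂˣ →* (Module.End ℂ V)ˣ) := by
  intro a b h
  have h1 := congrArg (fun u : (Module.End ℂ V)ˣ => (u : Module.End ℂ V)) h
  simp only [sc_coe] at h1
  obtain ⟨v, hv⟩ := exists_ne (0 : V)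
  have h2 := congrArg (fun f : Module.End ℂ V => f v) h1
  simp only [LinearMap.smul_apply, Module.End.one_apply] at h2
  apply Units.ext
  exact smul_left_injective ℂ hv h2

end Scalars

section Gam

variable {G : Type*} [Group G] (N : Subgroup G) [hN : N.Normal]
  {V : Type*} [AddCommGroup V] [Module ℂ V]

/-- The group of pairs `(g, T)` with `T` intertwining `ρ` and its `g`-conjugate. -/
def gam (ρ : Representation ℂ N V) : Subgroup (G × (Module.End ℂ V)ˣ) where
  carrier := {x | ∀ n : N, (x.2 : Module.End ℂ V) * ρ n =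
    ρ (MulAut.conjNormal x.1 n) * (x.2 : Module.End ℂ V)}
  one_mem' := by
    intro n
    simp
  mul_mem' := by
    intro x y hx hy n
    have h1 := hy n
    have h2 := hx (MulAut.conjNormal y.1 n)
    show ((x.2 * y.2 : (Module.End ℂ V)ˣ) : Module.End ℂ V) * ρ n =
      ρ (MulAut.conjNormal (x.1 * y.1) n) * ((x.2 * y.2 : (Module.End ℂ V)ˣ) : Module.End ℂ V)
    rw [Units.val_mul, mul_assoc, h1, ← mul_assoc, h2, mul_assoc, map_mul]
    rfl
  inv_mem' := by
    intro x hx n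
    have h1 := hx (MulAut.conjNormal x.1⁻¹ n)
    have h2 : MulAut.conjNormal x.1 (MulAut.conjNormal x.1⁻¹ n) = n := by
      rw [← MulAut.mul_apply, ← map_mul, mul_inv_cancel, map_one]
      rfl
    rw [h2] at h1
    show ((x.2⁻¹ : (Module.End ℂ V)ˣ) : Module.End ℂ V) * ρ n =
      ρ (MulAut.conjNormal x.1⁻¹ n) * ((x.2⁻¹ : (Module.End ℂ V)ˣ) : Module.End ℂ V)
    calc ((x.2⁻¹ : (Module.End ℂ V)ˣ) : Module.End ℂ V) * ρ n
        = ((x.2⁻¹ : (Module.End ℂ V)ˣ) : Module.End ℂ V) * (ρ n * (x.2 : Module.End ℂ V)) *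
            ((x.2⁻¹ : (Module.End ℂ V)ˣ) : Module.End ℂ V) := by
          rw [mul_assoc, mul_assoc, Units.mul_inv, mul_one]
      _ = ((x.2⁻¹ : (Module.End ℂ V)ˣ) : Module.End ℂ V) *
            ((x.2 : Module.End ℂ V) * ρ (MulAut.conjNormal x.1⁻¹ n)) *
            ((x.2⁻¹ : (Module.End ℂ V)ˣ) : Module.End ℂ V) := by rw [h1]
      _ = ρ (MulAut.conjNormal x.1⁻¹ n) * ((x.2⁻¹ : (Module.End ℂ V)ˣ) : Module.End ℂ V) := by
          rw [← mul_assoc, Units.inv_mul, one_mul]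

theorem mem_gam (ρ : Representation ℂ N V) (x : G × (Module.End ℂ V)ˣ) :
    x ∈ gam N ρ ↔ ∀ n : N, (x.2 : Module.End ℂ V) * ρ n =
      ρ (MulAut.conjNormal x.1 n) * (x.2 : Module.End ℂ V) := Iff.rfl


/-- Schur's lemma for units. -/
theorem schur_unit [FiniteDimensional ℂ V] (ρ : Representation ℂ N V) [ρ.IsIrreducible]
    (T : (Module.End ℂ V)ˣ) (hT : ∀ n : N, (T : Module.End ℂ V) * ρ n = ρ n * (T : Module.End ℂ V)) :
    ∃ c : ℂˣ, T = sc c := by
  have hnt : Nontrivial V := Cfsg.Agent.Lib.Helper5.irr_nontrivial ρ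
  obtain ⟨c, hc⟩ := Cfsg.Agent.Lib.Helper5.schur_scalar ρ (T : Module.End ℂ V) (by
    intro n v
    exact congrArg (fun f : Module.End ℂ V => f v) (hT n))
  have hc0 : c ≠ 0 := by
    intro h0
    rw [h0, zero_smul] at hc
    obtain ⟨v, hv⟩ := exists_ne (0 : V)
    apply hv
    have h1 : ((T⁻¹ : (Module.End ℂ V)ˣ) : Module.End ℂ V) * (T : Module.End ℂ V) = 1 :=
      Units.inv_mul T
    rw [hc, mul_zero] at h1
    have h2 := congrArg (fun f : Module.End ℂ V => f v) h1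
    simpa using h2.symm
  refine ⟨Units.mk0 c hc0, ?_⟩
  apply Units.ext
  rw [sc_coe, hc]
  rfl

/-- The central subgroup of scalars, as a homomorphism. -/
def zc (ρ : Representation ℂ N V) : ℂˣ →* gam N ρ where
  toFun c := ⟨(1, sc c), by
    intro n
    show ((sc c : (Module.End ℂ V)ˣ) : Module.End ℂ V) * ρ n =
      ρ (MulAut.conjNormal (1 : G) n) * ((sc c : (Module.End ℂ V)ˣ) : Module.End ℂ V)
    rw [map_one, sc_coe]
    simp⟩
  map_one' := by
    apply Subtype.ext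
    simp
  map_mul' a b := by
    apply Subtype.ext
    simp

theorem zc_val (ρ : Representation ℂ N V) (c : ℂˣ) :
    ((zc N ρ c : gam N ρ) : G × (Module.End ℂ V)ˣ) = (1, sc c) := rfl

theorem zc_central (ρ : Representation ℂ N V) (c : ℂˣ) (x : gam N ρ) :
    zc N ρ c * x = x * zc N ρ c := by
  apply Subtype.ext
  apply Prod.ext
  · simp [zc_val]
  · simp only [Subgroup.coe_mul, Prod.snd_mul, zc_val]
    exact sc_comm c _

/-- The embedding of `N`. -/
def nEmb (ρ : Representation ℂ N V) : N →* gam N ρ where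
  toFun n := ⟨((n : G), ρ.toHomUnits n), by
    intro m
    show ((ρ.toHomUnits n : (Module.End ℂ V)ˣ) : Module.End ℂ V) * ρ m =
      ρ (MulAut.conjNormal (n : G) m) * ((ρ.toHomUnits n : (Module.End ℂ V)ˣ) : Module.End ℂ V)
    rw [MonoidHom.coe_toHomUnits, ← map_mul, ← map_mul]
    congr 1
    apply Subtype.ext
    simp⟩
  map_one' := by
    apply Subtype.ext
    simp
  map_mul' a b := by
    apply Subtype.ext
    simp

theorem nEmb_val (ρ : Representation ℂ N V) (n : N) :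
    ((nEmb N ρ n : gam N ρ) : G × (Module.End ℂ V)ˣ) = ((n : G), ρ.toHomUnits n) := rfl

/-- First projection. -/
def pi1 (ρ : Representation ℂ N V) : gam N ρ →* G :=
  (MonoidHom.fst G (Module.End ℂ V)ˣ).comp (gam N ρ).subtype

/-- Second projection. -/
def pi2 (ρ : Representation ℂ N V) : gam N ρ →* (Module.End ℂ V)ˣ :=
  (MonoidHom.snd G (Module.End ℂ V)ˣ).comp (gam N ρ).subtype

theorem pi1_apply (ρ : Representation ℂ N V) (x : gam N ρ) : pi1 N ρ x = x.1.1 := rfl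

theorem pi2_apply (ρ : Representation ℂ N V) (x : gam N ρ) : pi2 N ρ x = x.1.2 := rfl

theorem gam_rel (ρ : Representation ℂ N V) (x : gam N ρ) (n : N) :
    (pi2 N ρ x : Module.End ℂ V) * ρ n =
      ρ (MulAut.conjNormal (pi1 N ρ x) n) * (pi2 N ρ x : Module.End ℂ V) := x.2 n

theorem gam_ext (ρ : Representation ℂ N V) {x y : gam N ρ} (h1 : pi1 N ρ x = pi1 N ρ y)
    (h2 : pi2 N ρ x = pi2 N ρ y) : x = y := by
  apply Subtype.ext
  exact Prod.ext h1 h2

theorem pi1_zc (ρ : Representation ℂ N V) (c : ℂˣ) : pi1 N ρ (zc N ρ c) = 1 := rfl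

theorem pi2_zc (ρ : Representation ℂ N V) (c : ℂˣ) : pi2 N ρ (zc N ρ c) = sc c := rfl

theorem pi1_nEmb (ρ : Representation ℂ N V) (n : N) : pi1 N ρ (nEmb N ρ n) = n := rfl

theorem pi2_nEmb (ρ : Representation ℂ N V) (n : N) :
    (pi2 N ρ (nEmb N ρ n) : Module.End ℂ V) = ρ n := rfl

/-- Conjugating the embedded `N`. -/
theorem conj_nEmb (ρ : Representation ℂ N V) (x : gam N ρ) (n : N) :
    x * nEmb N ρ n * x⁻¹ = nEmb N ρ (MulAut.conjNormal (pi1 N ρ x) n) := by
  apply gam_ext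
  · rw [map_mul, map_mul, map_inv, pi1_nEmb, pi1_nEmb]
    simp
  · apply Units.ext
    rw [map_mul, map_mul, map_inv, Units.val_mul, Units.val_mul, pi2_nEmb, pi2_nEmb, gam_rel,
      mul_assoc, Units.mul_inv, mul_one]

/-- The image of `N` is normal. -/
theorem nEmb_range_normal (ρ : Representation ℂ N V) : (nEmb N ρ).range.Normal := by
  constructor
  intro y hy x
  obtain ⟨n, rfl⟩ := hy
  rw [conj_nEmb]
  exact ⟨_, rfl⟩

/-- Elements with the same first projection differ by a scalar. -/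
theorem exists_zc_of_pi1_eq [FiniteDimensional ℂ V] (ρ : Representation ℂ N V) [ρ.IsIrreducible]
    (x y : gam N ρ) (h : pi1 N ρ x = pi1 N ρ y) : ∃ c : ℂˣ, x = zc N ρ c * y := by
  have hT : ∀ n : N, ((pi2 N ρ x * (pi2 N ρ y)⁻¹ : (Module.End ℂ V)ˣ) : Module.End ℂ V) * ρ n =
      ρ n * ((pi2 N ρ x * (pi2 N ρ y)⁻¹ : (Module.End ℂ V)ˣ) : Module.End ℂ V) := by
    intro n
    have h1 := gam_rel N ρ (x * y⁻¹) n
    rw [map_mul, map_mul, map_inv, map_inv, h, mul_inv_cancel, map_one] at h1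
    exact h1
  obtain ⟨c, hc⟩ := schur_unit N ρ _ hT
  refine ⟨c, ?_⟩
  apply gam_ext
  · rw [map_mul, pi1_zc, one_mul, h]
  · rw [map_mul, pi2_zc, ← hc, inv_mul_cancel_right]


instance nEmb_range_normal_inst (ρ : Representation ℂ N V) : (nEmb N ρ).range.Normal :=
  nEmb_range_normal N ρ

omit hN in
/-- Extracting a scalar-valued homomorphism. -/
theorem exists_scalar_hom [Nontrivial V] {Δ : Type*} [Group Δ] (F₁ F₂ : Δ →* (Module.End ℂ V)ˣ)
    (h : ∀ x, ∃ c : ℂˣ, F₁ x = sc c * F₂ x) : ∃ r : Δ →* ℂˣ, ∀ x, F₁ x = sc (r x) * F₂ x := by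
  choose r hr using h
  refine ⟨⟨⟨r, ?_⟩, ?_⟩, hr⟩
  · apply sc_injective (V := V)
    have := hr 1
    rw [map_one, map_one, mul_one] at this
    rw [← this, map_one]
  · intro x y
    apply sc_injective (V := V)
    have h1 := hr (x * y)
    rw [map_mul, map_mul, hr x, hr y] at h1
    have h2 : sc (r x) * F₂ x * (sc (r y) * F₂ y) = sc (r x * r y) * (F₂ x * F₂ y) := by
      rw [map_mul, mul_assoc, ← mul_assoc (F₂ x), ← sc_comm, mul_assoc, mul_assoc]
    rw [h2] at h1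
    exact (mul_right_cancel h1).symm

/-- If the scalars meet the commutator subgroup of `Γ / N₀` trivially, `ρ` extends to `G`. -/
theorem exists_ext_of_disjoint [FiniteDimensional ℂ V] (ρ : Representation ℂ N V)
    [ρ.IsIrreducible] (hsurj : Function.Surjective (pi1 N ρ))
    (hdisj : ∀ c : ℂˣ, (QuotientGroup.mk' (nEmb N ρ).range (zc N ρ c)) ∈
      commutator (gam N ρ ⧸ (nEmb N ρ).range) → c = 1) :
    ∃ σ : Representation ℂ G V, ∀ n : N, σ n = ρ n := by
  have hnt : Nontrivial V := Cfsg.Agent.Lib.Helper5.irr_nontrivial ρ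
  set q := QuotientGroup.mk' (nEmb N ρ).range with hq
  have hinj : Function.Injective (q.comp (zc N ρ)) := by
    rw [injective_iff_map_eq_one]
    intro c hc
    have h1 : zc N ρ c ∈ (nEmb N ρ).range := (QuotientGroup.eq_one_iff _).mp hc
    obtain ⟨n, hn⟩ := h1
    have h2 : (n : G) = 1 := by
      have := congrArg (pi1 N ρ) hn
      rw [pi1_nEmb, pi1_zc] at this
      exact this
    have h3 : n = 1 := Subtype.ext h2
    rw [h3, map_one] at hn
    have h4 := congrArg (pi2 N ρ) hn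
    rw [pi2_zc, map_one] at h4
    apply sc_injective (V := V)
    rw [← h4, map_one]
  have hC : commutator (gam N ρ ⧸ (nEmb N ρ).range) ⊓ (q.comp (zc N ρ)).range = ⊥ := by
    rw [Subgroup.eq_bot_iff_forall]
    rintro y ⟨hy1, c, rfl⟩
    have := hdisj c hy1
    rw [this, map_one]
  have hD : ∀ (d : ℂˣ) (m : ℕ), 0 < m → ∃ w : ℂˣ, w ^ m = d := by
    intro d m hm
    obtain ⟨z, hz⟩ := IsAlgClosed.exists_pow_nat_eq (d : ℂ) hm
    have hz0 : z ≠ 0 := by
      intro h0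
      rw [h0, zero_pow hm.ne'] at hz
      exact d.ne_zero hz.symm
    refine ⟨Units.mk0 z hz0, ?_⟩
    apply Units.ext
    simp [hz]
  let μ₀ : (q.comp (zc N ρ)).range →* ℂˣ := (MonoidHom.ofInjective hinj).symm.toMonoidHom
  obtain ⟨χ, hχ⟩ := Cfsg.Agent.Lib.Helper70.exists_hom_extending hD _ hC μ₀
  have hχz : ∀ c : ℂˣ, χ (q (zc N ρ c)) = c := by
    intro c
    have h1 := hχ ⟨q (zc N ρ c), ⟨c, rfl⟩⟩
    rw [h1]
    show (MonoidHom.ofInjective hinj).symm ⟨q (zc N ρ c), ⟨c, rfl⟩⟩ = c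
    rw [MulEquiv.symm_apply_eq]
    rfl
  have hχn : ∀ n : N, χ (q (nEmb N ρ n)) = 1 := by
    intro n
    have : q (nEmb N ρ n) = 1 := (QuotientGroup.eq_one_iff _).mpr ⟨n, rfl⟩
    rw [this, map_one]
  let R : gam N ρ →* (Module.End ℂ V)ˣ := MonoidHom.mk' (fun x => sc (χ (q x))⁻¹ * pi2 N ρ x) (by
    intro x y
    rw [map_mul, map_mul, mul_inv, map_mul, map_mul, mul_assoc, mul_assoc]
    congr 1
    rw [← mul_assoc, ← mul_assoc, sc_comm])
  have hR : ∀ x, R x = sc (χ (q x))⁻¹ * pi2 N ρ x := fun x => rfl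
  have hker : (pi1 N ρ).ker ≤ R.ker := by
    intro x hx
    rw [MonoidHom.mem_ker] at hx ⊢
    obtain ⟨c, hc⟩ := exists_zc_of_pi1_eq N ρ x 1 (by rw [hx, map_one])
    rw [mul_one] at hc
    rw [hR, hc, hχz, pi2_zc, ← map_mul, inv_mul_cancel, map_one]
  let σU : G →* (Module.End ℂ V)ˣ := (pi1 N ρ).liftOfRightInverse (Function.surjInv hsurj)
    (Function.rightInverse_surjInv hsurj) ⟨R, hker⟩
  have hσU : ∀ x, σU (pi1 N ρ x) = R x := fun x =>
    MonoidHom.liftOfRightInverse_comp_apply _ _ (Function.rightInverse_surjInv hsurj) ⟨R, hker⟩ x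
  refine ⟨(Units.coeHom (Module.End ℂ V)).comp σU, ?_⟩
  intro n
  show ((σU (n : G) : (Module.End ℂ V)ˣ) : Module.End ℂ V) = ρ n
  have h1 := hσU (nEmb N ρ n)
  rw [pi1_nEmb] at h1
  rw [h1, hR, hχn, inv_one, map_one, one_mul, pi2_nEmb]


/-- Transfer step: if `ρ` extends to `P ≥ N`, then a scalar in the commutator subgroup of `Γ / N₀`
has order dividing the index of `P`. -/
theorem pow_index_eq_one [Finite G] [FiniteDimensional ℂ V] (ρ : Representation ℂ N V)
    [ρ.IsIrreducible] (hsurj : Function.Surjective (pi1 N ρ)) (P : Subgroup G) (hNP : N ≤ P)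
    (σ' : P →* (Module.End ℂ V)ˣ)
    (hσ' : ∀ n : N, ((σ' ⟨(n : G), hNP n.2⟩ : (Module.End ℂ V)ˣ) : Module.End ℂ V) = ρ n)
    (c : ℂˣ) (hc : (QuotientGroup.mk' (nEmb N ρ).range (zc N ρ c)) ∈
      commutator (gam N ρ ⧸ (nEmb N ρ).range)) :
    c ^ P.index = 1 := by
  have hnt : Nontrivial V := Cfsg.Agent.Lib.Helper5.irr_nontrivial ρ
  set q := QuotientGroup.mk' (nEmb N ρ).range with hq
  have hqsurj : Function.Surjective q := QuotientGroup.mk'_surjective _
  set ΓP : Subgroup (gam N ρ) := P.comap (pi1 N ρ) with hΓP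
  have hN0P : (nEmb N ρ).range ≤ ΓP := by
    rintro x ⟨n, rfl⟩
    show pi1 N ρ (nEmb N ρ n) ∈ P
    rw [pi1_nEmb]
    exact hNP n.2
  set H : Subgroup (gam N ρ ⧸ (nEmb N ρ).range) := ΓP.map q with hH
  have hidx : H.index = P.index := by
    rw [hH, Subgroup.index_map_eq ΓP hqsurj (by rw [hq, QuotientGroup.ker_mk']; exact hN0P), hΓP,
      Subgroup.index_comap_of_surjective P hsurj]
  haveI : H.FiniteIndex := ⟨by rw [hidx]; exact Subgroup.index_ne_zero_of_finite⟩
  -- the two homomorphisms on ΓP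
  let F₁ : ΓP →* (Module.End ℂ V)ˣ := (pi2 N ρ).comp ΓP.subtype
  let F₂ : ΓP →* (Module.End ℂ V)ˣ := σ'.comp ((pi1 N ρ).subgroupComap P)
  have hσrel : ∀ (g : P) (m : N), ((σ' g : (Module.End ℂ V)ˣ) : Module.End ℂ V) * ρ m =
      ρ (MulAut.conjNormal (g : G) m) * ((σ' g : (Module.End ℂ V)ˣ) : Module.End ℂ V) := by
    intro g m
    rw [← hσ' m, ← hσ' (MulAut.conjNormal (g : G) m), ← Units.val_mul, ← Units.val_mul,
      ← map_mul, ← map_mul]
    congr 2
    apply Subtype.ext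
    simp
  have hex : ∀ x : ΓP, ∃ c : ℂˣ, F₁ x = sc c * F₂ x := by
    intro x
    let y : gam N ρ := ⟨(pi1 N ρ x.1, F₂ x), by
      intro m
      exact hσrel ((pi1 N ρ).subgroupComap P x) m⟩
    obtain ⟨c, hc⟩ := exists_zc_of_pi1_eq N ρ x.1 y rfl
    refine ⟨c, ?_⟩
    have h1 := congrArg (pi2 N ρ) hc
    rw [map_mul, pi2_zc] at h1
    exact h1
  obtain ⟨rP, hrP⟩ := exists_scalar_hom F₁ F₂ hex
  have hzP : ∀ c : ℂˣ, zc N ρ c ∈ ΓP := by
    intro c
    show pi1 N ρ (zc N ρ c) ∈ P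
    rw [pi1_zc]
    exact P.one_mem
  have hrPz : ∀ c : ℂˣ, rP ⟨zc N ρ c, hzP c⟩ = c := by
    intro c
    have h1 := hrP ⟨zc N ρ c, hzP c⟩
    have h2 : F₂ ⟨zc N ρ c, hzP c⟩ = 1 := by
      show σ' ((pi1 N ρ).subgroupComap P ⟨zc N ρ c, hzP c⟩) = 1
      have : (pi1 N ρ).subgroupComap P ⟨zc N ρ c, hzP c⟩ = 1 := by
        apply Subtype.ext
        rfl
      rw [this, map_one]
    have h3 : F₁ ⟨zc N ρ c, hzP c⟩ = sc c := rfl
    rw [h2, h3, mul_one] at h1
    exact (sc_injective (V := V) h1).symm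
  have hrPn : ∀ n : N, rP ⟨nEmb N ρ n, hN0P ⟨n, rfl⟩⟩ = 1 := by
    intro n
    have h1 := hrP ⟨nEmb N ρ n, hN0P ⟨n, rfl⟩⟩
    have h2 : F₂ ⟨nEmb N ρ n, hN0P ⟨n, rfl⟩⟩ = F₁ ⟨nEmb N ρ n, hN0P ⟨n, rfl⟩⟩ := by
      apply Units.ext
      show ((σ' ⟨(n : G), hNP n.2⟩ : (Module.End ℂ V)ˣ) : Module.End ℂ V) = ρ n
      exact hσ' n
    rw [h2] at h1
    have h3 : sc (rP ⟨nEmb N ρ n, hN0P ⟨n, rfl⟩⟩) = (1 : (Module.End ℂ V)ˣ) := by
      have := mul_right_cancel (a := (1 : (Module.End ℂ V)ˣ))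
        (b := F₁ ⟨nEmb N ρ n, hN0P ⟨n, rfl⟩⟩) (c := sc (rP ⟨nEmb N ρ n, hN0P ⟨n, rfl⟩⟩))
        (by rw [one_mul]; exact h1)
      exact this.symm
    apply sc_injective (V := V)
    rw [h3, map_one]
  -- descend to H
  let φ : ΓP →* H := q.subgroupMap ΓP
  have hφsurj : Function.Surjective φ := q.subgroupMap_surjective ΓP
  have hkerφ : φ.ker ≤ rP.ker := by
    intro x hx
    rw [MonoidHom.mem_ker] at hx ⊢
    have h1 : q x.1 = 1 := congrArg Subtype.val hx
    have h2 : x.1 ∈ (nEmb N ρ).range := (QuotientGroup.eq_one_iff _).mp h1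
    obtain ⟨n, hn⟩ := h2
    have h3 : x = ⟨nEmb N ρ n, hN0P ⟨n, rfl⟩⟩ := Subtype.ext hn.symm
    rw [h3]
    exact hrPn n
  let f : H →* ℂˣ := φ.liftOfRightInverse (Function.surjInv hφsurj)
    (Function.rightInverse_surjInv hφsurj) ⟨rP, hkerφ⟩
  have hf : ∀ x, f (φ x) = rP x := fun x =>
    MonoidHom.liftOfRightInverse_comp_apply _ _ (Function.rightInverse_surjInv hφsurj)
      ⟨rP, hkerφ⟩ x
  -- the central element
  have hyc : q (zc N ρ c) ∈ Subgroup.center (gam N ρ ⧸ (nEmb N ρ).range) := by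
    rw [Subgroup.mem_center_iff]
    intro y
    obtain ⟨x, rfl⟩ := hqsurj y
    rw [← map_mul, ← map_mul, zc_central]
  have hyH : q (zc N ρ c) ^ H.index ∈ H := by
    apply Subgroup.pow_mem
    exact ⟨zc N ρ c, hzP c, rfl⟩
  have key := Cfsg.Agent.Lib.Helper70.pow_index_mem_commutator_of_central H hyc hc hyH
  have h1 : f ⟨q (zc N ρ c) ^ H.index, hyH⟩ = 1 := Abelianization.commutator_subset_ker f key
  have h2 : (⟨q (zc N ρ c) ^ H.index, hyH⟩ : H) = φ ⟨zc N ρ (c ^ H.index), hzP _⟩ := by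
    apply Subtype.ext
    show q (zc N ρ c) ^ H.index = q (zc N ρ (c ^ H.index))
    rw [map_pow, map_pow]
  rw [h2, hf, hrPz, hidx] at h1
  exact h1


/-- Invariance of the character makes the first projection surjective. -/
theorem pi1_surjective [Finite G] {d : ℕ} (ρ : Representation ℂ N (Fin d → ℂ)) [ρ.IsIrreducible]
    (hinv : ∀ (g : G) (n : N), ρ.character (MulAut.conjNormal g n) = ρ.character n) :
    Function.Surjective (pi1 N ρ) := by
  classical
  letI := Fintype.ofFinite N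
  intro g
  let ρg : Representation ℂ N (Fin d → ℂ) := ρ.comp (MulAut.conjNormal g : MulAut N).toMonoidHom
  have hcharg : ρ.character = ρg.character := by
    funext x
    exact (hinv g x).symm
  obtain ⟨e⟩ := Cfsg.Agent.Lib.Helper4.equiv_of_char_eq ρ ρg hcharg
  let T : (Module.End ℂ (Fin d → ℂ))ˣ :=
    ⟨e.toLinearEquiv.toLinearMap, e.toLinearEquiv.symm.toLinearMap,
      LinearMap.ext fun v => e.toLinearEquiv.apply_symm_apply v,
      LinearMap.ext fun v => e.toLinearEquiv.symm_apply_apply v⟩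
  refine ⟨⟨(g, T), ?_⟩, rfl⟩
  intro n
  exact e.toIntertwiningMap.isIntertwining' n

/-- An irreducible character of `P ≥ N` restricting to the character of `ρ` gives a homomorphism
`P → GL(V)` extending `ρ`. -/
theorem exists_unit_ext [Finite G] {d : ℕ} (ρ : Representation ℂ N (Fin d → ℂ))
    (P : Subgroup G) (hNP : N ≤ P) (η : P → ℂ) (hη : IsIrrCharacter P η)
    (hres : ∀ n : N, η ⟨(n : G), hNP n.2⟩ = ρ.character n) :
    ∃ σ' : P →* (Module.End ℂ (Fin d → ℂ))ˣ, ∀ n : N,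
      ((σ' ⟨(n : G), hNP n.2⟩ : (Module.End ℂ (Fin d → ℂ))ˣ) : Module.End ℂ (Fin d → ℂ)) = ρ n := by
  classical
  letI := Fintype.ofFinite N
  obtain ⟨d', τ, hτirr, hτchar⟩ := hη
  let τN : Representation ℂ N (Fin d' → ℂ) := τ.comp (Subgroup.inclusion hNP)
  have hchar : τN.character = ρ.character := by
    funext n
    rw [← hres n, ← hτchar]
    rfl
  obtain ⟨e⟩ := Cfsg.Agent.Lib.Helper4.equiv_of_char_eq τN ρ hchar
  refine ⟨(Cfsg.Agent.Lib.Helper4.transport τ e.toLinearEquiv).toHomUnits, ?_⟩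
  intro n
  rw [MonoidHom.coe_toHomUnits]
  have h1 := e.toIntertwiningMap.isIntertwining' n
  apply LinearMap.ext
  intro v
  have h2 := congrArg (fun f : (Fin d' → ℂ) →ₗ[ℂ] (Fin d → ℂ) => f (e.toLinearEquiv.symm v)) h1
  simp only [LinearMap.comp_apply] at h2
  show e.toLinearEquiv (τ ⟨(n : G), hNP n.2⟩ (e.toLinearEquiv.symm v)) = ρ n v
  have h3 : e.toLinearEquiv (e.toLinearEquiv.symm v) = v := e.toLinearEquiv.apply_symm_apply v
  calc e.toLinearEquiv (τ ⟨(n : G), hNP n.2⟩ (e.toLinearEquiv.symm v))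
      = ρ n (e.toLinearEquiv (e.toLinearEquiv.symm v)) := h2
    _ = ρ n v := by rw [h3]

omit hN in
/-- A representation of `G` restricting to an irreducible representation of `N` affords an
irreducible character. -/
theorem irr_of_res {d : ℕ} (σ : Representation ℂ G (Fin d → ℂ))
    (ρ : Representation ℂ N (Fin d → ℂ)) [ρ.IsIrreducible] (hσ : ∀ n : N, σ n = ρ n) :
    IsIrrCharacter G σ.character ∧ ∀ n : N, σ.character n = ρ.character n := by
  have hnt : Nontrivial (Fin d → ℂ) := Cfsg.Agent.Lib.Helper5.irr_nontrivial ρ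
  have hσirr : σ.IsIrreducible := by
    refine @IsSimpleOrder.mk _ _ _ ⟨⊥, ⊤, ?_⟩ ?_
    · intro h
      have h1 : (⊥ : Submodule ℂ (Fin d → ℂ)) = ⊤ :=
        congrArg Subrepresentation.toSubmodule h
      obtain ⟨v, hv⟩ := exists_ne (0 : Fin d → ℂ)
      have : v ∈ (⊥ : Submodule ℂ (Fin d → ℂ)) := by rw [h1]; trivial
      exact hv (by simpa using this)
    · intro W
      have hW : ∀ x : N, ∀ v ∈ W.toSubmodule, ρ x v ∈ W.toSubmodule := by
        intro x v hv
        rw [← hσ x]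
        exact W.apply_mem_toSubmodule x hv
      rcases Cfsg.Agent.Lib.Helper5.irr_stable_eq_bot_or_top ρ W.toSubmodule hW with h | h
      · left
        exact Subrepresentation.toSubmodule_injective h
      · right
        exact Subrepresentation.toSubmodule_injective h
  refine ⟨⟨d, σ, hσirr, rfl⟩, ?_⟩
  intro x
  show LinearMap.trace ℂ _ (σ x) = LinearMap.trace ℂ _ (ρ x)
  rw [hσ x]

end Gam

end Cfsg.Agent.Lib.Helper21
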