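import Mathlib
import Cfsg.Agent.Lib.Helper4.FCDefs

/-! Project FC (S4146, architect helper4), piece LF1: for `x ∈ H` the class size of `x` splits as
`|A : C_A(x)| * |H : C_H(x)|` with the first factor `1` or `n` and the second `1` or `m`. -/

namespace Cfsg.Agent.Lib.Helper4.FC

universe u

theorem fc_lf1 : SplitStmt.{u} → LF1Stmt.{u} := by
  intro hsplit G _ _ n m A H x hctx hxH
  obtain ⟨hfour, hAn, hAab, hcop, hAH, hAHt, hAm, hZn⟩ := hctx
  obtain ⟨hn1, hm1, hnm, hcs, -, -, -⟩ := hfour
  have hcsx : cs x = (Cen x).relIndex A * (Cen x).relIndex H := hsplit G A H x hAn hAH hAHt hxH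
  have hα : (Cen x).relIndex A ∣ n := by
    rw [← hZn]
    exact Subgroup.relIndex_dvd_of_le_left A (Subgroup.center_le_centralizer _)
  have hnA : n ∣ Nat.card A := by
    rw [← hZn]
    exact Subgroup.index_dvd_card _
  have hβH : (Cen x).relIndex H ∣ Nat.card H := Subgroup.index_dvd_card _
  have hcompl : Subgroup.IsComplement' H A := by
    have := hAn
    apply Subgroup.isComplement'_of_disjoint_and_mul_eq_univ
    · rw [disjoint_iff, inf_comm]; exact hAH
    · rw [← Subgroup.mul_normal H A, sup_comm, hAHt]; rfl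
  have hidx : A.index = Nat.card H := hcompl.index_eq_card
  have hβn : ((Cen x).relIndex H).Coprime n := by
    have h1 : (Nat.card H).Coprime (Nat.card A) := by rw [← hidx]; exact hcop.symm
    exact Nat.Coprime.coprime_dvd_left hβH (Nat.Coprime.coprime_dvd_right hnA h1)
  have hαm : ((Cen x).relIndex A).Coprime m := Nat.Coprime.coprime_dvd_left hα hnm
  refine ⟨?_, ?_, hcsx⟩
  · rcases hcs x with h | h | h | h
    · rw [hcsx] at h
      exact Or.inl (mul_eq_one.mp h).1
    · rw [hcsx] at h
      have h1 : (Cen x).relIndex H = 1 := Nat.Coprime.eq_one_of_dvd hβn (Dvd.intro_left _ h)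
      rw [h1, mul_one] at h
      exact Or.inr h
    · rw [hcsx] at h
      exact Or.inl (Nat.Coprime.eq_one_of_dvd hαm (Dvd.intro _ h))
    · rw [hcsx] at h
      have hβm : (Cen x).relIndex H ∣ m :=
        Nat.Coprime.dvd_of_dvd_mul_left hβn (Dvd.intro_left _ h)
      obtain ⟨c, hc⟩ := hα
      obtain ⟨d, hd⟩ := hβm
      have hpos : 0 < (Cen x).relIndex A * (Cen x).relIndex H := by
        rw [h]; exact Nat.mul_pos (by omega) (by omega)
      have h2 : (Cen x).relIndex A * (Cen x).relIndex H * 1 =
          (Cen x).relIndex A * (Cen x).relIndex H * (c * d) := by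
        rw [mul_one]
        nth_rewrite 1 [h]
        rw [hc, hd]
        ring
      have h3 : 1 = c * d := Nat.eq_of_mul_eq_mul_left hpos h2
      have h4 : c = 1 := (mul_eq_one.mp h3.symm).1
      rw [h4, mul_one] at hc
      exact Or.inr hc.symm
  · rcases hcs x with h | h | h | h
    · rw [hcsx] at h
      exact Or.inl (mul_eq_one.mp h).2
    · rw [hcsx] at h
      exact Or.inl (Nat.Coprime.eq_one_of_dvd hβn (Dvd.intro_left _ h))
    · rw [hcsx] at h
      have h1 : (Cen x).relIndex A = 1 := Nat.Coprime.eq_one_of_dvd hαm (Dvd.intro _ h)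
      rw [h1, one_mul] at h
      exact Or.inr h
    · rw [hcsx] at h
      have hβm : (Cen x).relIndex H ∣ m :=
        Nat.Coprime.dvd_of_dvd_mul_left hβn (Dvd.intro_left _ h)
      obtain ⟨c, hc⟩ := hα
      obtain ⟨d, hd⟩ := hβm
      have hpos : 0 < (Cen x).relIndex A * (Cen x).relIndex H := by
        rw [h]; exact Nat.mul_pos (by omega) (by omega)
      have h2 : (Cen x).relIndex A * (Cen x).relIndex H * 1 =
          (Cen x).relIndex A * (Cen x).relIndex H * (c * d) := by
        rw [mul_one]
        nth_rewrite 1 [h]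
        rw [hc, hd]
        ring
      have h3 : 1 = c * d := Nat.eq_of_mul_eq_mul_left hpos h2
      have h4 : d = 1 := (mul_eq_one.mp h3.symm).2
      rw [h4, mul_one] at hd
      exact Or.inr hd.symm

end Cfsg.Agent.Lib.Helper4.FC
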