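import Mathlib

/-!
# Piece G4-ALT for S2553 (helper70's job board)
-/

namespace Cfsg.Agent.Lib.Helper21.G4

open Equiv

/-- `|A| * |B : A| = |B|` for `A ≤ B`. -/
theorem g4_card_mul_relIndex {G : Type*} [Group G] {A B : Subgroup G} (hAB : A ≤ B) :
    Nat.card A * A.relIndex B = Nat.card B := by
  have h1 := Subgroup.card_mul_index (A.subgroupOf B)
  rw [Nat.card_congr (Subgroup.subgroupOfEquivOfLe hAB).toEquiv] at h1
  exact h1

theorem alt_le_of_card {n : ℕ} (hn : 5 ≤ n) (T : Subgroup (Equiv.Perm (Fin n)))
    (h : n.factorial < n * Nat.card T) : alternatingGroup (Fin n) ≤ T := by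
  classical
  haveI : Nontrivial (Fin n) := Fin.nontrivial_iff_two_le.mpr (by omega)
  haveI hsimple : IsSimpleGroup (alternatingGroup (Fin n)) :=
    alternatingGroup.isSimpleGroup (by rw [Nat.card_eq_fintype_card, Fintype.card_fin]; exact hn)
  have hcardP : Nat.card (Equiv.Perm (Fin n)) = n.factorial := by
    rw [Nat.card_perm, Nat.card_eq_fintype_card, Fintype.card_fin]
  have hcardA : 2 * Nat.card (alternatingGroup (Fin n)) = n.factorial := by
    rw [two_mul_nat_card_alternatingGroup, hcardP]
  have hAidx : (alternatingGroup (Fin n)).index = 2 := by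
    have h1 := Subgroup.card_mul_index (alternatingGroup (Fin n))
    rw [hcardP, ← hcardA, mul_comm] at h1
    have hpos : 0 < Nat.card (alternatingGroup (Fin n)) := Nat.card_pos
    exact Nat.eq_of_mul_eq_mul_right hpos h1
  by_contra hAT
  have hT0 : T.subgroupOf (alternatingGroup (Fin n)) ≠ ⊤ := fun h0 =>
    hAT (Subgroup.subgroupOf_eq_top.mp h0)
  have hk : (T.subgroupOf (alternatingGroup (Fin n))).index * Nat.card T ≤ n.factorial := by
    have h1 : Nat.card (T ⊓ alternatingGroup (Fin n) : Subgroup (Perm (Fin n)))
        * T.relIndex (alternatingGroup (Fin n)) = Nat.card (alternatingGroup (Fin n)) := by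
      have := g4_card_mul_relIndex (inf_le_right : T ⊓ alternatingGroup (Fin n) ≤ _)
      rwa [Subgroup.inf_relIndex_right] at this
    have h2 : Nat.card (T ⊓ alternatingGroup (Fin n) : Subgroup (Perm (Fin n)))
        * (alternatingGroup (Fin n)).relIndex T = Nat.card T := by
      have := g4_card_mul_relIndex (inf_le_left : T ⊓ alternatingGroup (Fin n) ≤ _)
      rwa [Subgroup.inf_relIndex_left] at this
    have h3 : (alternatingGroup (Fin n)).relIndex T ≤ 2 := by
      have := Subgroup.relIndex_le_of_le_right (H := alternatingGroup (Fin n)) (le_top : T ≤ ⊤)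
        (by rw [Subgroup.relIndex_top_right, hAidx]; norm_num)
      rwa [Subgroup.relIndex_top_right, hAidx] at this
    calc (T.subgroupOf (alternatingGroup (Fin n))).index * Nat.card T
        = T.relIndex (alternatingGroup (Fin n)) *
          (Nat.card (T ⊓ alternatingGroup (Fin n) : Subgroup (Perm (Fin n)))
            * (alternatingGroup (Fin n)).relIndex T) := by rw [h2]; rfl
      _ ≤ T.relIndex (alternatingGroup (Fin n)) *
          (Nat.card (T ⊓ alternatingGroup (Fin n) : Subgroup (Perm (Fin n))) * 2) := by
          gcongr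
      _ = 2 * (Nat.card (T ⊓ alternatingGroup (Fin n) : Subgroup (Perm (Fin n)))
            * T.relIndex (alternatingGroup (Fin n))) := by ring
      _ = n.factorial := by rw [h1, hcardA]
  have hTpos : 0 < Nat.card T := Nat.card_pos
  have hklt : (T.subgroupOf (alternatingGroup (Fin n))).index < n := by
    by_contra hge
    push Not at hge
    have : n * Nat.card T ≤ (T.subgroupOf (alternatingGroup (Fin n))).index * Nat.card T :=
      Nat.mul_le_mul_right _ hge
    omega
  have hker : (MulAction.toPermHom (alternatingGroup (Fin n))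
      (alternatingGroup (Fin n) ⧸ T.subgroupOf (alternatingGroup (Fin n)))).ker = ⊥ := by
    rcases (MonoidHom.normal_ker (MulAction.toPermHom (alternatingGroup (Fin n))
      (alternatingGroup (Fin n) ⧸ T.subgroupOf (alternatingGroup (Fin n))))).eq_bot_or_eq_top
      with h0 | h0
    · exact h0
    · exfalso
      rw [← Subgroup.normalCore_eq_ker] at h0
      exact hT0 (top_le_iff.mp (h0 ▸ Subgroup.normalCore_le _))
  have hinj := (MonoidHom.ker_eq_bot_iff _).mp hker
  have hle : Nat.card (alternatingGroup (Fin n)) ≤ Nat.card (Equiv.Perm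
      (alternatingGroup (Fin n) ⧸ T.subgroupOf (alternatingGroup (Fin n)))) :=
    Nat.card_le_card_of_injective _ hinj
  rw [Nat.card_perm, ← Subgroup.index_eq_card] at hle
  have h4 : ((T.subgroupOf (alternatingGroup (Fin n))).index).factorial ≤ (n - 1).factorial :=
    Nat.factorial_le (by omega)
  have h5 : n * (n - 1).factorial = n.factorial := Nat.mul_factorial_pred (by omega)
  have h6 : 0 < (n - 1).factorial := Nat.factorial_pos _
  have h7 : n * (n - 1).factorial ≤ 2 * (n - 1).factorial := by
    rw [h5, ← hcardA]
    exact Nat.mul_le_mul_left 2 (hle.trans h4)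
  have h8 : n ≤ 2 := Nat.le_of_mul_le_mul_right h7 h6
  omega

theorem iso_of_alt_le {n : ℕ} (T : Subgroup (Equiv.Perm (Fin n)))
    (h : alternatingGroup (Fin n) ≤ T) :
    Nonempty (T ≃* alternatingGroup (Fin n)) ∨ Nonempty (T ≃* Equiv.Perm (Fin n)) := by
  classical
  by_cases hT : T ≤ alternatingGroup (Fin n)
  · left
    have : T = alternatingGroup (Fin n) := le_antisymm hT h
    exact ⟨MulEquiv.subgroupCongr this⟩
  · right
    have htop : T = ⊤ := by
      obtain ⟨g, hgT, hgA⟩ := SetLike.not_le_iff_exists.mp hT
      rw [eq_top_iff]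
      intro x _
      by_cases hx : x ∈ alternatingGroup (Fin n)
      · exact h hx
      · have h1 : g⁻¹ * x ∈ alternatingGroup (Fin n) := by
          rw [Equiv.Perm.mem_alternatingGroup] at hgA hx ⊢
          rw [map_mul, map_inv]
          rcases Int.units_eq_one_or (Equiv.Perm.sign g) with h1 | h1
          · exact absurd h1 hgA
          · rcases Int.units_eq_one_or (Equiv.Perm.sign x) with h2 | h2
            · exact absurd h2 hx
            · rw [h1, h2]; decide
        have := T.mul_mem hgT (h h1)
        rwa [mul_inv_cancel_left] at this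
    exact ⟨(MulEquiv.subgroupCongr htop).trans Subgroup.topEquiv⟩

end Cfsg.Agent.Lib.Helper21.G4
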