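import Mathlib
import Cfsg.Agent.S0144

/-!
# Piece G4-D5 for S2553 (helper70's job board)
-/

namespace Cfsg.Agent.Lib.Helper21.G4

theorem deg5
    (hALT : ∀ T : Subgroup (Equiv.Perm (Fin 5)), Nat.factorial 5 < 5 * Nat.card T →
      alternatingGroup (Fin 5) ≤ T)
    (hISO : ∀ T : Subgroup (Equiv.Perm (Fin 5)), alternatingGroup (Fin 5) ≤ T →
      Nonempty (T ≃* alternatingGroup (Fin 5)) ∨ Nonempty (T ≃* Equiv.Perm (Fin 5)))
    (T : Subgroup (Equiv.Perm (Fin 5))) (hT : ¬ Group.IsSolvable T) :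
    Nonempty (T ≃* alternatingGroup (Fin 5)) ∨ Nonempty (T ≃* Equiv.Perm (Fin 5)) := by
  by_cases h : Nat.factorial 5 < 5 * Nat.card T
  · exact hISO T (hALT T h)
  · exfalso
    have hfac : Nat.factorial 5 = 120 := by decide
    have hdvd : Nat.card T ∣ 120 := by
      have := Subgroup.card_subgroup_dvd_card T
      rwa [Nat.card_perm, Nat.card_fin, hfac] at this
    have hle : Nat.card T ≤ 24 := by omega
    have hpos : 0 < Nat.card T := Nat.card_pos
    obtain ⟨p, q, a, b, hp, hq, hc⟩ :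
        ∃ p q a b : ℕ, p.Prime ∧ q.Prime ∧ Nat.card T = p ^ a * q ^ b := by
      generalize Nat.card T = c at hdvd hle hpos
      interval_cases c <;> first
        | (exfalso; omega)
        | exact ⟨2, 3, 0, 0, Nat.prime_two, Nat.prime_three, rfl⟩
        | exact ⟨2, 3, 1, 0, Nat.prime_two, Nat.prime_three, rfl⟩
        | exact ⟨2, 3, 0, 1, Nat.prime_two, Nat.prime_three, rfl⟩
        | exact ⟨2, 3, 2, 0, Nat.prime_two, Nat.prime_three, rfl⟩
        | exact ⟨5, 2, 1, 0, Nat.prime_five, Nat.prime_two, rfl⟩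
        | exact ⟨2, 3, 1, 1, Nat.prime_two, Nat.prime_three, rfl⟩
        | exact ⟨2, 3, 3, 0, Nat.prime_two, Nat.prime_three, rfl⟩
        | exact ⟨2, 5, 1, 1, Nat.prime_two, Nat.prime_five, rfl⟩
        | exact ⟨2, 3, 2, 1, Nat.prime_two, Nat.prime_three, rfl⟩
        | exact ⟨3, 5, 1, 1, Nat.prime_three, Nat.prime_five, rfl⟩
        | exact ⟨2, 5, 2, 1, Nat.prime_two, Nat.prime_five, rfl⟩
        | exact ⟨2, 3, 3, 1, Nat.prime_two, Nat.prime_three, rfl⟩
    exact hT (Cfsg.Agent.S0144.result p q a b hp hq hc)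

end Cfsg.Agent.Lib.Helper21.G4
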