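import Mathlib
import Cfsg.Agent.Lib.Helper40.SL2Gen
import Cfsg.Agent.Lib.Helper7.SL2Sylow

/-!
# S3009 piece NM-SYL (for helper51)

`sylow_conj`: a Sylow `p`-subgroup of a group isomorphic to `SL₂(F)`, `|F| = p ^ n`, is mapped
onto a conjugate of the group of upper unitriangular matrices.
-/

set_option autoImplicit false

namespace Cfsg.Agent.Lib.Helper21.NMSYL

open Matrix Cfsg.Agent.Lib.Helper40

/-- the characteristic of a field with `p ^ n` elements is `p` -/
theorem nmsyl_charP {F : Type*} [Field F] [Fintype F] {p : ℕ} [Fact p.Prime] (n : ℕ)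
    (hF : Fintype.card F = p ^ n) : CharP F p := by
  have hp : p.Prime := Fact.out
  obtain ⟨p', hp'⟩ := CharP.exists F
  have : CharP F p' := hp'
  have : Fact p'.Prime := ⟨CharP.char_is_prime F p'⟩
  obtain ⟨k, hk1, hk⟩ := FiniteField.card F p'
  have hn : n ≠ 0 := by
    rintro rfl
    rw [pow_zero] at hF
    have h1 : 1 < Fintype.card F := Fintype.one_lt_card
    omega
  have h1 : p ∣ p' ^ (k : ℕ) := by
    rw [← hk, hF]
    exact dvd_pow_self p hn
  have h2 : p = p' := (Nat.prime_dvd_prime_iff_eq hp hk1).1 (hp.dvd_of_dvd_pow h1)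
  rw [h2]
  exact hp'

theorem sylow_conj {F : Type*} [Field F] [Fintype F] {p : ℕ} [Fact p.Prime] (n : ℕ)
    (hF : Fintype.card F = p ^ n) {G : Type*} [Group G]
    (ι : G ≃* SpecialLinearGroup (Fin 2) F) (S : Sylow p G) :
    ∃ g₀ : SpecialLinearGroup (Fin 2) F,
      ∀ x : G, x ∈ S ↔ ∃ a : F, g₀ * ι x * g₀⁻¹ = sl2Up a := by
  classical
  have : CharP F p := nmsyl_charP n hF
  have : Finite G := Finite.of_equiv _ ι.symm.toEquiv
  have hsurj : Function.Surjective (ι.toMonoidHom : G →* SpecialLinearGroup (Fin 2) F) :=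
    ι.surjective
  obtain ⟨g, hg⟩ := Cfsg.Agent.Lib.Helper7.exists_smul_USLSylow p (S.mapSurjective hsurj)
  have htu : ∀ t : F, Cfsg.Agent.Lib.Helper7.tu t = sl2Up t := fun t =>
    Subtype.ext (Cfsg.Agent.Lib.Helper7.tu_coe t)
  refine ⟨g⁻¹, fun x => ?_⟩
  have h1 : x ∈ S ↔ ι x ∈ ((S.mapSurjective hsurj : Sylow p (SpecialLinearGroup (Fin 2) F)) :
      Subgroup (SpecialLinearGroup (Fin 2) F)) := by
    rw [Sylow.coe_mapSurjective]
    exact (Subgroup.mem_map_iff_mem (f := ι.toMonoidHom) ι.injective).symm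
  rw [h1, ← hg, Cfsg.Agent.Lib.Helper7.mem_smul_USLSylow_iff]
  constructor
  · rintro ⟨t, ht⟩
    refine ⟨t, ?_⟩
    rw [ht, ← htu]
    group
  · rintro ⟨a, ha⟩
    refine ⟨a, ?_⟩
    rw [htu, ← ha]
    group

end Cfsg.Agent.Lib.Helper21.NMSYL
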