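import Mathlib
import Cfsg.Agent.Lib.Helper91.SimpleGen

set_option autoImplicit false

/-!
# Piece T1 for S5163 (helper91's job board): `GoodSyl` is invariant under isomorphisms

Also the general transport lemma `goodSyl_map` used for piece T2.
-/

namespace Cfsg.Agent.Lib.Helper21.PslT1

open Cfsg.Agent.Lib.Helper91.SimpleGen

/-- the image of a normalizing element normalizes the image -/
theorem map_mem_normalizer {G G' : Type*} [Group G] [Group G'] (π : G →* G') (S : Subgroup G)
    (g : G) (hg : g ∈ Subgroup.normalizer (S : Set G)) :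
    π g ∈ Subgroup.normalizer ((S.map π : Subgroup G') : Set G') := by
  rw [Subgroup.mem_normalizer_iff]
  intro y'
  constructor
  · rintro ⟨y, hy, rfl⟩
    exact ⟨g * y * g⁻¹, (Subgroup.mem_normalizer_iff.mp hg y).mp hy, by
      rw [map_mul, map_mul, map_inv]⟩
  · rintro ⟨s, hs, hsy⟩
    refine ⟨g⁻¹ * s * g, ?_, ?_⟩
    · refine (Subgroup.mem_normalizer_iff.mp hg (g⁻¹ * s * g)).mpr ?_
      have e : g * (g⁻¹ * s * g) * g⁻¹ = s := by group
      rw [e]
      exact hs
    · rw [map_mul, map_mul, hsy, map_inv]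
      group

/-- transport of `GoodSyl` along a surjective homomorphism which is injective on `S` and
reflects normalization of `S` -/
theorem goodSyl_map {G G' : Type*} [Group G] [Group G'] (π : G →* G')
    (hπ : Function.Surjective π) (p : ℕ) (S : Subgroup G) (hK : ∀ x ∈ S, π x = 1 → x = 1)
    (hN : ∀ g : G, π g ∈ Subgroup.normalizer ((S.map π : Subgroup G') : Set G') →
      ∀ s ∈ S, g * s * g⁻¹ ∈ S)
    (h : GoodSyl p S) : GoodSyl p (S.map π) := by
  obtain ⟨h1, h2, h3⟩ := h
  have hinj : ∀ x ∈ S, ∀ y ∈ S, π x = π y → x = y := by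
    intro x hx y hy hxy
    have h4 : x * y⁻¹ = 1 := hK _ (S.mul_mem hx (S.inv_mem hy)) (by
      rw [map_mul, map_inv, hxy, mul_inv_cancel])
    exact mul_inv_eq_one.mp h4
  refine ⟨?_, ?_, ?_⟩
  · intro hbot
    apply h1
    rw [Subgroup.eq_bot_iff_forall]
    intro x hx
    apply hK x hx
    have h4 : π x ∈ S.map π := Subgroup.mem_map_of_mem π hx
    rw [hbot, Subgroup.mem_bot] at h4
    exact h4
  · intro T' hT' hcl
    have hT : (S ⊓ T'.comap π) = ⊥ ∨ (S ⊓ T'.comap π) = S := by
      apply h2 _ inf_le_left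
      intro x hx g hg
      refine ⟨hg, ?_⟩
      show π (g * x * g⁻¹) ∈ T'
      rw [map_mul, map_mul, map_inv]
      apply hcl _ hx.2
      rw [← map_inv, ← map_mul, ← map_mul]
      exact Subgroup.mem_map_of_mem π hg
    have hmap : T' = (S ⊓ T'.comap π).map π := by
      apply le_antisymm
      · intro x' hx'
        obtain ⟨s, hs, rfl⟩ := hT' hx'
        exact Subgroup.mem_map_of_mem π ⟨hs, hx'⟩
      · rintro _ ⟨x, hx, rfl⟩
        exact hx.2
    rcases hT with hT | hT
    · left
      rw [hmap, hT, Subgroup.map_bot]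
    · right
      rw [hmap, hT]
  · intro g' hg'
    obtain ⟨g, rfl⟩ := hπ g'
    have hgN : g ∈ Subgroup.normalizer (S : Set G) := by
      rw [Subgroup.mem_normalizer_iff]
      intro y
      constructor
      · exact hN g hg' y
      · intro hy
        have hg'' : π g⁻¹ ∈ Subgroup.normalizer ((S.map π : Subgroup G') : Set G') := by
          rw [map_inv]
          exact Subgroup.inv_mem _ hg'
        have h4 := hN g⁻¹ hg'' _ hy
        have e : g⁻¹ * (g * y * g⁻¹) * g⁻¹⁻¹ = y := by group
        rwa [e] at h4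
    have h5 := Subgroup.mem_map_of_mem π (h3 hgN)
    rw [MonoidHom.map_closure] at h5
    refine Subgroup.closure_mono ?_ h5
    rintro _ ⟨a, ha, rfl⟩
    rcases ha with (ha | ha) | ⟨haN, P, hPS, hPn, hPc, haP⟩
    · exact Or.inl (Or.inl (Subgroup.mem_map_of_mem π ha))
    · refine Or.inl (Or.inr ?_)
      rw [SetLike.mem_coe, Subgroup.mem_centralizer_iff]
      rintro _ ⟨y, hy, rfl⟩
      rw [← map_mul, ← map_mul, (Subgroup.mem_centralizer_iff.mp ha) y hy]
    · refine Or.inr ⟨map_mem_normalizer π S a haN, P.map π, Subgroup.map_mono hPS, ?_, ?_, ?_⟩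
      · rintro _ ⟨s, hs, rfl⟩ _ ⟨x, hx, rfl⟩
        rw [← map_inv, ← map_mul, ← map_mul]
        exact Subgroup.mem_map_of_mem π (hPn s hs x hx)
      · rintro _ ⟨c, hc, rfl⟩ hcomm
        refine Subgroup.mem_map_of_mem π (hPc c hc ?_)
        intro x hx
        apply hinj _ (S.mul_mem hc (hPS hx)) _ (S.mul_mem (hPS hx) hc)
        rw [map_mul, map_mul]
        exact hcomm _ (Subgroup.mem_map_of_mem π hx)
      · have h6 := Subgroup.mem_map_of_mem π haP
        rw [MonoidHom.map_closure] at h6
        refine Subgroup.closure_mono ?_ h6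
        rintro _ ⟨x, ⟨hxN, k, hxk⟩, rfl⟩
        exact ⟨map_mem_normalizer π P x hxN, k, by rw [← map_pow, hxk, map_one]⟩

theorem goodSyl_map_equiv {G G' : Type*} [Group G] [Group G'] (e : G ≃* G') (p : ℕ)
    (S : Subgroup G) (h : GoodSyl p S) : GoodSyl p (S.map e.toMonoidHom) := by
  refine goodSyl_map e.toMonoidHom e.surjective p S ?_ ?_ h
  · intro x _ hx
    have hx' : e x = 1 := hx
    exact e.injective (by rw [hx', map_one])
  · intro g hg s hs
    obtain ⟨s', hs', hss'⟩ := (Subgroup.mem_normalizer_iff.mp hg (e.toMonoidHom s)).mp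
      (Subgroup.mem_map_of_mem _ hs)
    have h4 : e s' = e (g * s * g⁻¹) := by
      rw [map_mul, map_mul, map_inv]
      exact hss'
    rw [← e.injective h4]
    exact hs'

end Cfsg.Agent.Lib.Helper21.PslT1
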