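import Mathlib
import Cfsg.Agent.Lib.Helper91.SimpleGen
import Cfsg.Agent.Lib.Helper21.PslT1

set_option autoImplicit false

/-!
# Piece T2 for S5163 (helper91's job board): `GoodSyl` passes to the quotient by a central
subgroup without `p`-elements
-/

namespace Cfsg.Agent.Lib.Helper21.PslT2

open Cfsg.Agent.Lib.Helper91.SimpleGen

theorem goodSyl_quot {H : Type*} [Group H] [Finite H] (p : ℕ) [Fact p.Prime] (N : Subgroup H)
    [N.Normal] (hN : N ≤ Subgroup.center H) (hNp : ∀ z ∈ N, ∀ k : ℕ, z ^ p ^ k = 1 → z = 1)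
    (S : Subgroup H) (hS : IsPGroup p S) (h : GoodSyl p S) :
    GoodSyl p (S.map (QuotientGroup.mk' N)) := by
  obtain ⟨m, hm⟩ := IsPGroup.iff_card.mp hS
  have hpow : ∀ x ∈ S, x ^ p ^ m = 1 := by
    intro x hx
    have h1 : (⟨x, hx⟩ : S) ^ Nat.card S = 1 := pow_card_eq_one'
    rw [hm] at h1
    exact congrArg Subtype.val h1
  refine Cfsg.Agent.Lib.Helper21.PslT1.goodSyl_map (QuotientGroup.mk' N)
    (QuotientGroup.mk'_surjective N) p S ?_ ?_ h
  · intro x hx hx1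
    have hxN : x ∈ N := (QuotientGroup.eq_one_iff x).mp hx1
    exact hNp x hxN m (hpow x hx)
  · intro g hg s hs
    obtain ⟨s', hs', hss'⟩ := (Subgroup.mem_normalizer_iff.mp hg (QuotientGroup.mk' N s)).mp
      (Subgroup.mem_map_of_mem _ hs)
    have h2 : (QuotientGroup.mk' N) s' = (QuotientGroup.mk' N) (g * s * g⁻¹) := by
      rw [hss', map_mul, map_mul, map_inv]
    have h3 : s'⁻¹ * (g * s * g⁻¹) ∈ N := QuotientGroup.eq.mp h2
    have hzc : ∀ y : H, y * (s'⁻¹ * (g * s * g⁻¹)) = (s'⁻¹ * (g * s * g⁻¹)) * y :=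
      fun y => Subgroup.mem_center_iff.mp (hN h3) y
    have h4 : g * s * g⁻¹ = s' * (s'⁻¹ * (g * s * g⁻¹)) := by group
    have h5 : (g * s * g⁻¹) ^ p ^ m = 1 := by
      rw [conj_pow, hpow s hs]
      group
    have h6 : (s' * (s'⁻¹ * (g * s * g⁻¹))) ^ p ^ m
        = s' ^ p ^ m * (s'⁻¹ * (g * s * g⁻¹)) ^ p ^ m :=
      Commute.mul_pow (hzc s') _
    rw [h4, h6, hpow s' hs', one_mul] at h5
    have h7 : s'⁻¹ * (g * s * g⁻¹) = 1 := hNp _ h3 m h5
    rw [h4, h7, mul_one]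
    exact hs'

end Cfsg.Agent.Lib.Helper21.PslT2
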