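import Mathlib
import Cfsg.Agent.Lib.Helper93.Sp4Defs
import Cfsg.Agent.Lib.Helper93.PresCore

/-!
# S2293, piece SP4-R1S: the rank one package for the long root `SL₂` (odd-core first half)
-/

set_option autoImplicit false

namespace Cfsg.Agent.Lib.Helper93.Sp4

open Polynomial Matrix

/-- R1S -/
theorem r1pkg_sq {F : Type*} [Field F] [Fintype F] (p : ℕ) [Fact p.Prime] [CharP F p]
    [Algebra (ZMod p) F] (ζ : F) (hζ0 : ζ ≠ 0) (hζ : ∀ a : F, a ≠ 0 → ∃ j : ℕ, a = ζ ^ j)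
    (fz fzi : (ZMod p)[X]) (hfz : aeval (ζ ^ 2) fz = ζ) (hfzi : aeval (ζ ^ 2) fzi = ζ⁻¹)
    {P : Type*} [Group P] (u h t : P)
    (hcomm : ∀ i j, Commute (Pres.aC u h i) (Pres.aC u h j))
    (hrel : ∀ r ∈ Pres.relsBase p (minpoly (ZMod p) (ζ ^ 2)) fz fzi u h t, r = 1) :
    ∃ x : F → P, (∀ a b, x (a + b) = x a * x b) ∧ x 1 = u ∧
      (∀ a, h⁻¹ * x a * h = x (ζ ^ 2 * a)) ∧
      (∀ a : F, a ≠ 0 → ∃ z ∈ Subgroup.zpowers h, x a * t⁻¹ * x a⁻¹ * t * x a = z * t) ∧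
      h ^ (Fintype.card F - 1) = 1 ∧ (∀ j : ℕ, ζ ^ j = -1 → t ^ 2 = h ^ j) := by
  have hu : u ^ p = 1 := hrel _ (by simp [Pres.relsBase])
  have hR2 : t * h * t⁻¹ * h = 1 := hrel _ (by simp [Pres.relsBase])
  have hR4 : u * t⁻¹ * u * t * u * t⁻¹ = 1 := hrel _ (by simp [Pres.relsBase])
  have hm : Pres.pw p u h (minpoly (ZMod p) (ζ ^ 2)) = 1 := hrel _ (by simp [Pres.relsBase])
  have hR9 : Pres.pw p u h fz * t⁻¹ * Pres.pw p u h fzi * t * Pres.pw p u h fz * (h⁻¹ * t)⁻¹ = 1 :=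
    hrel _ (by simp [Pres.relsBase])
  obtain ⟨x, hadd, hx1, hconj, hpw⟩ :=
    Pres.exists_xt p ζ (Pres.aeval_sq_surj p ζ hζ) u h hu hcomm hm
  have hx0 : x 0 = 1 := by
    have := hadd 0 0
    rw [add_zero] at this
    exact left_eq_mul.mp this
  have hxneg : ∀ a, x (-a) = (x a)⁻¹ := by
    intro a
    rw [eq_inv_iff_mul_eq_one, ← hadd, neg_add_cancel, hx0]
  have hth : t * h * t⁻¹ = h⁻¹ := eq_inv_of_mul_eq_one_left hR2
  have h0 : x 1 * t⁻¹ * x 1 * t * x 1 = t := by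
    rw [hx1]; exact mul_inv_eq_one.mp hR4
  have hxz : Pres.pw p u h fz = x ζ := by rw [← hpw, hfz]
  have hxzi : Pres.pw p u h fzi = x ζ⁻¹ := by rw [← hpw, hfzi]
  have h1 : x ζ * t⁻¹ * x ζ⁻¹ * t * x ζ = h⁻¹ * t := by
    rw [hxz, hxzi] at hR9
    exact mul_inv_eq_one.mp hR9
  have hE := Pres.E_all ζ hζ0 h t x hconj hth h0 h1
  have hq1 : ζ ^ (Fintype.card F - 1) = 1 := FiniteField.pow_card_sub_one_eq_one ζ hζ0
  have hhq : h ^ (Fintype.card F - 1) = 1 := by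
    have e := hE (Fintype.card F - 1)
    rw [hq1, inv_one, h0] at e
    have : h⁻¹ ^ (Fintype.card F - 1) = 1 := right_eq_mul.mp e
    rwa [inv_pow, inv_eq_one] at this
  have ht2 : ∀ j0 : ℕ, ζ ^ j0 = -1 → t ^ 2 = h ^ j0 := by
    intro j0 hj0
    have e := hE j0
    rw [hj0, inv_neg_one, hxneg, hx1] at e
    have e2 : u⁻¹ * t⁻¹ * u⁻¹ * t * u⁻¹ = t⁻¹ := by
      have := congrArg (·⁻¹) (mul_inv_eq_one.mp hR4)
      simpa [mul_assoc] using this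
    rw [e2] at e
    have e3 : h⁻¹ ^ j0 = t⁻¹ * t⁻¹ := by
      calc h⁻¹ ^ j0 = (h⁻¹ ^ j0 * t) * t⁻¹ := by group
        _ = t⁻¹ * t⁻¹ := by rw [← e]
    calc t ^ 2 = (t⁻¹ * t⁻¹)⁻¹ := by group
      _ = (h⁻¹ ^ j0)⁻¹ := by rw [e3]
      _ = h ^ j0 := by group
  have hiii : ∀ a : F, a ≠ 0 →
      ∃ z ∈ Subgroup.zpowers h, x a * t⁻¹ * x a⁻¹ * t * x a = z * t := by
    intro a ha
    obtain ⟨j, rfl⟩ := hζ a ha
    exact ⟨h⁻¹ ^ j, Subgroup.pow_mem _ (Subgroup.inv_mem _ (Subgroup.mem_zpowers h)) j, hE j⟩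
  exact ⟨x, hadd, hx1, hconj, hiii, hhq, ht2⟩

end Cfsg.Agent.Lib.Helper93.Sp4
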