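import Mathlib
import Cfsg.Agent.S4127

set_option autoImplicit false

namespace Cfsg.Agent.Lib.Helper21.Sqf

/-- commuting (p-element, p'-element) pairs are in bijection with the group -/
theorem card_commuting_pairs {G : Type*} [Group G] [Finite G] (p : ℕ) [Fact p.Prime] :
    Nat.card {vy : G × G // (∃ k : ℕ, vy.1 ^ (p ^ k) = 1) ∧
      (orderOf vy.2).Coprime p ∧ vy.1 * vy.2 = vy.2 * vy.1} = Nat.card G := by
  have hp : p.Prime := Fact.out
  let f : {vy : G × G // (∃ k : ℕ, vy.1 ^ (p ^ k) = 1) ∧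
      (orderOf vy.2).Coprime p ∧ vy.1 * vy.2 = vy.2 * vy.1} → G := fun vy => vy.1.1 * vy.1.2
  have key : ∀ (v y : G) (k : ℕ), v ^ (p ^ k) = 1 → (orderOf y).Coprime p → v * y = y * v →
      ∀ K : ℕ, k ≤ K → y ∈ Subgroup.zpowers (v * y) := by
    intro v y k hv hy hc K hK
    have h1 : (v * y) ^ (p ^ K) = y ^ (p ^ K) := by
      have hcm : Commute v y := hc
      rw [hcm.mul_pow]
      have : v ^ (p ^ K) = 1 := by
        obtain ⟨d, rfl⟩ := Nat.exists_eq_add_of_le hK
        rw [pow_add, pow_mul, hv, one_pow]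
      rw [this, one_mul]
    have hcop : (p ^ K).Coprime (orderOf y) := Nat.Coprime.pow_left _ hy.symm
    obtain ⟨m, hm⟩ := exists_pow_eq_self_of_coprime (x := y) hcop
    have h2 : ((v * y) ^ (p ^ K)) ^ m ∈ Subgroup.zpowers (v * y) :=
      Subgroup.pow_mem _ (Subgroup.pow_mem _ (Subgroup.mem_zpowers _) _) _
    rw [h1, hm] at h2
    exact h2
  have hbij : Function.Bijective f := by
    constructor
    · rintro ⟨⟨v, y⟩, ⟨k, hv⟩, hy, hc⟩ ⟨⟨v', y'⟩, ⟨k', hv'⟩, hy', hc'⟩ hfe
      simp only [f] at hfe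
      simp only at hv hy hc hv' hy' hc'
      have hyz : y ∈ Subgroup.zpowers (v * y) := key v y k hv hy hc k le_rfl
      have hyz' : y' ∈ Subgroup.zpowers (v * y) := by
        rw [hfe]; exact key v' y' k' hv' hy' hc' k' le_rfl
      have hvz : v ∈ Subgroup.zpowers (v * y) := by
        have h := Subgroup.mul_mem _ (Subgroup.mem_zpowers (v * y)) (Subgroup.inv_mem _ hyz)
        simpa using h
      have hvz' : v' ∈ Subgroup.zpowers (v * y) := by
        have h := Subgroup.mul_mem _ (Subgroup.mem_zpowers (v * y)) (Subgroup.inv_mem _ hyz')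
        have e : v * y * y'⁻¹ = v' := by rw [hfe]; group
        rw [e] at h
        exact h
      have hcomm : ∀ a ∈ Subgroup.zpowers (v * y), ∀ b ∈ Subgroup.zpowers (v * y),
          Commute a b := by
        intro a ha b hb
        obtain ⟨i, rfl⟩ := ha
        obtain ⟨j, rfl⟩ := hb
        exact (Commute.refl _).zpow_zpow _ _
      -- w = v'⁻¹ * v = y' * y⁻¹
      have hw : v'⁻¹ * v = y' * y⁻¹ := by
        have : v = v' * y' * y⁻¹ := by rw [← hfe]; group
        rw [this]; group
      have hw1 : (v'⁻¹ * v) ^ (p ^ (k + k')) = 1 := by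
        have hcm : Commute v'⁻¹ v := (hcomm v' hvz' v hvz).inv_left
        rw [hcm.mul_pow, inv_pow]
        have e1 : v' ^ (p ^ (k + k')) = 1 := by
          rw [pow_add, mul_comm, pow_mul, hv', one_pow]
        have e2 : v ^ (p ^ (k + k')) = 1 := by
          rw [pow_add, pow_mul, hv, one_pow]
        rw [e1, e2]; simp
      have hw2 : (v'⁻¹ * v) ^ (orderOf y * orderOf y') = 1 := by
        rw [hw]
        have hcm : Commute y' y⁻¹ := (hcomm y' hyz' y hyz).inv_right
        rw [hcm.mul_pow, inv_pow]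
        have e1 : y' ^ (orderOf y * orderOf y') = 1 := by
          rw [pow_mul']; simp [pow_orderOf_eq_one]
        have e2 : y ^ (orderOf y * orderOf y') = 1 := by
          rw [pow_mul]; simp [pow_orderOf_eq_one]
        rw [e1, e2]; simp
      have hcop : (p ^ (k + k')).Coprime (orderOf y * orderOf y') :=
        Nat.Coprime.pow_left _ (Nat.Coprime.mul_right hy.symm hy'.symm)
      have hd1 := orderOf_dvd_of_pow_eq_one hw1
      have hd2 := orderOf_dvd_of_pow_eq_one hw2
      have ho : orderOf (v'⁻¹ * v) = 1 := Nat.eq_one_of_dvd_coprimes hcop hd1 hd2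
      have hvv : v'⁻¹ * v = 1 := orderOf_eq_one_iff.mp ho
      have hv_eq : v = v' := by
        have := congrArg (fun t => v' * t) hvv
        simpa using this
      have hy_eq : y = y' := by
        rw [hv_eq] at hfe
        exact mul_left_cancel hfe
      subst hv_eq; subst hy_eq; rfl
    · intro x
      obtain ⟨i, j, a, hx, hi, hj⟩ := Cfsg.Agent.S4127.exists_decomp p hp x
      refine ⟨⟨(x ^ i, x ^ j), ⟨a, hi⟩, ?_, ?_⟩, ?_⟩
      · exact Nat.Coprime.symm ((Nat.Prime.coprime_iff_not_dvd hp).mpr hj)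
      · show x ^ i * x ^ j = x ^ j * x ^ i
        rw [← zpow_add, ← zpow_add, add_comm]
      · show x ^ i * x ^ j = x
        exact hx.symm
  exact Nat.card_congr (Equiv.ofBijective f hbij)

end Cfsg.Agent.Lib.Helper21.Sqf
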