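import Mathlib

set_option autoImplicit false

namespace Cfsg.Agent.Lib.Helper21.Sqf

open scoped commutatorElement

/-- the commutator map `g ↦ x g x⁻¹ g⁻¹` on a group with central commutators -/
def sqfPhi {Q : Type*} [Group Q]
    (hcl : ∀ a b c : Q, (a * b * a⁻¹ * b⁻¹) * c = c * (a * b * a⁻¹ * b⁻¹)) (x : Q) : Q →* Q where
  toFun g := x * g * x⁻¹ * g⁻¹
  map_one' := by group
  map_mul' g h := by
    have h1 := hcl x h g⁻¹
    calc x * (g * h) * x⁻¹ * (g * h)⁻¹
        = x * g * x⁻¹ * ((x * h * x⁻¹ * h⁻¹) * g⁻¹) := by group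
      _ = x * g * x⁻¹ * (g⁻¹ * (x * h * x⁻¹ * h⁻¹)) := by rw [h1]
      _ = x * g * x⁻¹ * g⁻¹ * (x * h * x⁻¹ * h⁻¹) := by group

theorem sqfPhi_apply {Q : Type*} [Group Q]
    (hcl : ∀ a b c : Q, (a * b * a⁻¹ * b⁻¹) * c = c * (a * b * a⁻¹ * b⁻¹)) (x g : Q) :
    sqfPhi hcl x g = x * g * x⁻¹ * g⁻¹ := rfl

theorem sqfPhi_mul_left {Q : Type*} [Group Q]
    (hcl : ∀ a b c : Q, (a * b * a⁻¹ * b⁻¹) * c = c * (a * b * a⁻¹ * b⁻¹)) (x y g : Q) :
    sqfPhi hcl (x * y) g = sqfPhi hcl x g * sqfPhi hcl y g := by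
  simp only [sqfPhi_apply]
  have h1 := hcl y g x⁻¹
  calc x * y * g * (x * y)⁻¹ * g⁻¹
      = x * ((y * g * y⁻¹ * g⁻¹) * x⁻¹) * (x * g * x⁻¹ * g⁻¹) := by group
    _ = x * (x⁻¹ * (y * g * y⁻¹ * g⁻¹)) * (x * g * x⁻¹ * g⁻¹) := by rw [h1]
    _ = (y * g * y⁻¹ * g⁻¹) * (x * g * x⁻¹ * g⁻¹) := by group
    _ = (x * g * x⁻¹ * g⁻¹) * (y * g * y⁻¹ * g⁻¹) := (hcl y g _)

theorem sqfPhi_swap {Q : Type*} [Group Q]
    (hcl : ∀ a b c : Q, (a * b * a⁻¹ * b⁻¹) * c = c * (a * b * a⁻¹ * b⁻¹)) (x g : Q) :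
    sqfPhi hcl g x = (sqfPhi hcl x g)⁻¹ := by
  simp only [sqfPhi_apply]; group

/-- two subgroups of order dividing a prime sharing a nontrivial element are equal -/
theorem sqf_eq_of_common {Q : Type*} [Group Q] [Finite Q] (q : ℕ) (hq : q.Prime)
    (A B : Subgroup Q) (hA : Nat.card A ∣ q) (hB : Nat.card B ∣ q) (z : Q) (hz : z ≠ 1)
    (hzA : z ∈ A) (hzB : z ∈ B) : A = B := by
  have hzo : orderOf z = q := by
    have h1 : orderOf z ∣ q := by
      have := Subgroup.orderOf_dvd_natCard A hzA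
      exact this.trans hA
    rcases (Nat.dvd_prime hq).mp h1 with h | h
    · exact absurd (orderOf_eq_one_iff.mp h) hz
    · exact h
  have hcz : Nat.card (Subgroup.zpowers z) = q := by rw [Nat.card_zpowers, hzo]
  have key : ∀ C : Subgroup Q, Nat.card C ∣ q → z ∈ C → Subgroup.zpowers z = C := by
    intro C hC hzC
    have hle : Subgroup.zpowers z ≤ C := by
      rw [Subgroup.zpowers_le]; exact hzC
    apply Subgroup.eq_of_le_of_card_ge hle
    rw [hcz]
    exact Nat.le_of_dvd hq.pos hC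
  rw [← key A hA hzA, ← key B hB hzB]

/-- Knoche: class 2 + breadth 1 gives derived subgroup of order dividing q (abstract group form) -/
theorem sqf_derived_aux {Q : Type*} [Group Q] [Finite Q] (q : ℕ) (hq : q.Prime)
    (hcl : ∀ a b c : Q, (a * b * a⁻¹ * b⁻¹) * c = c * (a * b * a⁻¹ * b⁻¹))
    (hbr : ∀ x : Q, Nat.card (sqfPhi hcl x).range ∣ q) :
    ∃ A : Subgroup Q, Nat.card A ∣ q ∧ ∀ x g : Q, x * g * x⁻¹ * g⁻¹ ∈ A := by
  classical
  have hmem : ∀ x g : Q, sqfPhi hcl x g ∈ (sqfPhi hcl x).range := fun x g => ⟨g, rfl⟩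
  have hmem' : ∀ x g : Q, sqfPhi hcl x g ∈ (sqfPhi hcl g).range := by
    intro x g
    have : sqfPhi hcl x g = sqfPhi hcl g x⁻¹ := by
      rw [sqfPhi_swap hcl g x, map_inv]
    rw [this]; exact ⟨x⁻¹, rfl⟩
  -- if phi x g ≠ 1 then range x = range g
  have hxg : ∀ x g : Q, sqfPhi hcl x g ≠ 1 → (sqfPhi hcl x).range = (sqfPhi hcl g).range := by
    intro x g hne
    exact sqf_eq_of_common q hq _ _ (hbr x) (hbr g) _ hne (hmem x g) (hmem' x g)
  -- key claim
  have claim : ∀ x y : Q, (sqfPhi hcl x).range ≠ ⊥ → (sqfPhi hcl y).range ≠ ⊥ →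
      (sqfPhi hcl x).range = (sqfPhi hcl y).range := by
    intro x y hx hy
    have ex : ∃ g, sqfPhi hcl x g ≠ 1 := by
      by_contra hcon
      push Not at hcon
      apply hx
      rw [eq_bot_iff]
      rintro _ ⟨g, rfl⟩
      rw [Subgroup.mem_bot]; exact hcon g
    have ey : ∃ g, sqfPhi hcl y g ≠ 1 := by
      by_contra hcon
      push Not at hcon
      apply hy
      rw [eq_bot_iff]
      rintro _ ⟨g, rfl⟩
      rw [Subgroup.mem_bot]; exact hcon g
    obtain ⟨g, hg⟩ := ex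
    obtain ⟨h, hh⟩ := ey
    by_cases h1 : sqfPhi hcl y g = 1
    · by_cases h2 : sqfPhi hcl x h = 1
      · have e1 : sqfPhi hcl (x * y) g = sqfPhi hcl x g := by
          rw [sqfPhi_mul_left, h1, mul_one]
        have e2 : sqfPhi hcl (x * y) h = sqfPhi hcl y h := by
          rw [sqfPhi_mul_left, h2, one_mul]
        have r1 : (sqfPhi hcl x).range = (sqfPhi hcl (x * y)).range :=
          sqf_eq_of_common q hq _ _ (hbr x) (hbr (x * y)) _ hg (hmem x g) (by
            rw [← e1]; exact hmem _ _)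
        have r2 : (sqfPhi hcl y).range = (sqfPhi hcl (x * y)).range :=
          sqf_eq_of_common q hq _ _ (hbr y) (hbr (x * y)) _ hh (hmem y h) (by
            rw [← e2]; exact hmem _ _)
        rw [r1, r2]
      · rw [hxg x h h2, hxg y h hh]
    · rw [hxg x g hg, hxg y g h1]
  by_cases hall : ∀ x : Q, (sqfPhi hcl x).range = ⊥
  · refine ⟨⊥, by simp, ?_⟩
    intro x g
    have := hmem x g
    rw [hall x] at this
    exact this
  · push Not at hall
    obtain ⟨x0, hx0⟩ := hall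
    refine ⟨(sqfPhi hcl x0).range, hbr x0, ?_⟩
    intro x g
    by_cases hx : (sqfPhi hcl x).range = ⊥
    · have := hmem x g
      rw [hx, Subgroup.mem_bot] at this
      rw [← sqfPhi_apply hcl, this]
      exact Subgroup.one_mem _
    · rw [← claim x x0 hx hx0]
      exact hmem x g

/-- PIECE E (Knoche: class 2 + breadth 1 => |Q'| ≤ q) -/
theorem derived_card_dvd {G : Type*} [Group G] [Finite G] (q : ℕ) [Fact q.Prime]
    (Q : Subgroup G) (hQ : IsPGroup q Q)
    (hcl : ∀ a ∈ Q, ∀ b ∈ Q, ∀ c ∈ Q, (a * b * a⁻¹ * b⁻¹) * c = c * (a * b * a⁻¹ * b⁻¹))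
    (hbr : ∀ x ∈ Q, (Subgroup.centralizer ({x} : Set G)).relIndex Q ∣ q) :
    Nat.card (⁅Q, Q⁆ : Subgroup G) ∣ q := by
  have hq : q.Prime := Fact.out
  have hcl' : ∀ a b c : Q, (a * b * a⁻¹ * b⁻¹) * c = c * (a * b * a⁻¹ * b⁻¹) := by
    intro a b c
    apply Subtype.ext
    simpa using hcl a a.2 b b.2 c c.2
  have hbr' : ∀ x : Q, Nat.card (sqfPhi hcl' x).range ∣ q := by
    intro x
    rw [← Subgroup.index_ker]
    have hk : (sqfPhi hcl' x).ker = (Subgroup.centralizer ({(x : G)} : Set G)).subgroupOf Q := by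
      ext g
      rw [MonoidHom.mem_ker, sqfPhi_apply, Subgroup.mem_subgroupOf,
        Subgroup.mem_centralizer_singleton_iff]
      constructor
      · intro h
        have h2 : x * g = g * x := by
          have := congrArg (fun t => t * g * x) h
          simpa [mul_assoc] using this
        have := congrArg Subtype.val h2
        simpa using this.symm
      · intro h
        have h2 : x * g = g * x := Subtype.ext (by simpa using h.symm)
        rw [h2]; group
    rw [hk]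
    exact hbr x x.2
  obtain ⟨A, hA, hAc⟩ := sqf_derived_aux q hq hcl' hbr'
  have hle : (⁅Q, Q⁆ : Subgroup G) ≤ A.map Q.subtype := by
    rw [Subgroup.commutator_le]
    intro a ha b hb
    rw [commutatorElement_def]
    refine ⟨⟨a, ha⟩ * ⟨b, hb⟩ * (⟨a, ha⟩ : Q)⁻¹ * (⟨b, hb⟩ : Q)⁻¹, hAc _ _, ?_⟩
    simp
  have hcard : Nat.card (A.map Q.subtype) = Nat.card A :=
    Nat.card_congr (A.equivMapOfInjective Q.subtype Q.subtype_injective).symm.toEquiv
  have hd := Subgroup.card_dvd_of_le hle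
  rw [hcard] at hd
  exact hd.trans hA

end Cfsg.Agent.Lib.Helper21.Sqf
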