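import Mathlib

/-!
# Project TG (S2197, architect helper99): piece TG-NO65 (proof by helper21)

A group of order `17971200` with a subgroup `S` of order `2048`, an involution-like central element
`z ∈ S` centralised by `P ≥ S`, and no subgroup of order `276480` containing `P`, has no faithful
`2`-transitive action of degree `65`.
-/

set_option autoImplicit false

namespace Cfsg.Agent.Lib.Helper99.TG

open MulAction

/-- the stabiliser of a pair of distinct points in a `2`-transitive action of degree `65` -/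
theorem tgno65_pair_card {G : Type*} [Group G] [Finite G] {Ω : Type*} [Fintype Ω] [MulAction G Ω]
    (hΩ : Fintype.card Ω = 65)
    (hT2 : ∀ {a b c d : Ω}, a ≠ b → c ≠ d → ∃ g : G, g • a = c ∧ g • b = d)
    (α β : Ω) (hαβ : α ≠ β) :
    4160 * Nat.card (stabilizer G ((α, β) : Ω × Ω)) = Nat.card G := by
  classical
  have horb : orbit G ((α, β) : Ω × Ω) = ((Finset.univ : Finset Ω).offDiag : Set (Ω × Ω)) := by
    ext ⟨c, d⟩
    rw [Finset.mem_coe, Finset.mem_offDiag, mem_orbit_iff]
    constructor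
    · rintro ⟨g, hg⟩
      rw [Prod.smul_mk, Prod.mk.injEq] at hg
      refine ⟨Finset.mem_univ _, Finset.mem_univ _, ?_⟩
      rw [← hg.1, ← hg.2]
      exact fun h => hαβ (smul_left_cancel g h)
    · rintro ⟨_, _, hcd⟩
      obtain ⟨g, h1, h2⟩ := hT2 hαβ hcd
      exact ⟨g, by rw [Prod.smul_mk, h1, h2]⟩
  have h1 := index_stabilizer G ((α, β) : Ω × Ω)
  rw [horb, Set.ncard_coe_finset, Finset.offDiag_card, Finset.card_univ, hΩ] at h1
  have h2 := Subgroup.index_mul_card (stabilizer G ((α, β) : Ω × Ω))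
  rw [h1] at h2
  have h3 : (65 * 65 - 65 : ℕ) = 4160 := by norm_num
  rw [h3] at h2
  exact h2

theorem tg_no_65 {G : Type*} [Group G] [Finite G] {Ω : Type*} [Fintype Ω] [MulAction G Ω]
    [FaithfulSMul G Ω] (hΩ : Fintype.card Ω = 65) (h2 : MulAction.IsMultiplyPretransitive G Ω 2)
    (hG : Nat.card G = 17971200) (S P : Subgroup G) (z : G) (hS : Nat.card S = 2048)
    (hzS : z ∈ S) (hz1 : z ≠ 1) (hzc : ∀ g ∈ P, g * z = z * g) (hSP : S ≤ P)
    (he : ∀ H : Subgroup G, P ≤ H → Nat.card H ≠ 276480) : False := by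
  classical
  have hT2 : ∀ {a b c d : Ω}, a ≠ b → c ≠ d → ∃ g : G, g • a = c ∧ g • b = d :=
    (MulAction.is_two_pretransitive_iff (G := G) (α := Ω)).1 h2
  have hSp : IsPGroup 2 ↥S := IsPGroup.of_card (n := 11) (by rw [hS]; norm_num)
  have hcardΩ : Nat.card Ω = 65 := by rw [Nat.card_eq_fintype_card, hΩ]
  obtain ⟨α, hα⟩ := hSp.nonempty_fixed_point_of_prime_not_dvd_card Ω (by rw [hcardΩ]; norm_num)
  have hSα : ∀ s ∈ S, s • α = α := fun s hs => hα ⟨s, hs⟩
  -- `S` is transitive on the other 64 points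
  have horbS : ∀ β : Ω, β ≠ α → ∀ γ : Ω, γ ≠ α → ∃ s ∈ S, s • β = γ := by
    intro β hβ
    have hpair := tgno65_pair_card hΩ hT2 α β (Ne.symm hβ)
    rw [hG] at hpair
    have hpc : Nat.card (stabilizer G ((α, β) : Ω × Ω)) = 4320 := by omega
    have hKle : (stabilizer ↥S β).map S.subtype ≤ stabilizer G ((α, β) : Ω × Ω) := by
      rintro _ ⟨s, hs, rfl⟩
      rw [mem_stabilizer_iff, Prod.smul_mk, Prod.mk.injEq]
      exact ⟨hSα s s.2, hs⟩
    have hKS : (stabilizer ↥S β).map S.subtype ≤ S := by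
      rintro _ ⟨s, _, rfl⟩
      exact s.2
    have hKcard : Nat.card ((stabilizer ↥S β).map S.subtype) = Nat.card (stabilizer ↥S β) :=
      Subgroup.card_map_of_injective S.subtype_injective
    have hd1 : Nat.card (stabilizer ↥S β) ∣ 4320 := by
      rw [← hKcard, ← hpc]
      exact Subgroup.card_dvd_of_le hKle
    have hd2 : Nat.card (stabilizer ↥S β) ∣ 2048 := by
      rw [← hKcard, ← hS]
      exact Subgroup.card_dvd_of_le hKS
    have hd3 : Nat.card (stabilizer ↥S β) ∣ 32 := by
      have h := Nat.dvd_gcd hd1 hd2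
      have hg : Nat.gcd 4320 2048 = 32 := by norm_num
      rw [hg] at h
      exact h
    have hle32 : Nat.card (stabilizer ↥S β) ≤ 32 := Nat.le_of_dvd (by norm_num) hd3
    have hidx := Subgroup.index_mul_card (stabilizer ↥S β)
    rw [index_stabilizer, hS] at hidx
    have h64 : 64 ≤ (orbit ↥S β).ncard := by
      by_contra hlt
      have h63 : (orbit ↥S β).ncard ≤ 63 := by omega
      have hmul : (orbit ↥S β).ncard * Nat.card (stabilizer ↥S β) ≤ 63 * 32 :=
        Nat.mul_le_mul h63 hle32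
      omega
    have hsub : orbit ↥S β ⊆ ({α}ᶜ : Set Ω) := by
      rintro _ ⟨s, rfl⟩
      intro h
      apply hβ
      have h' : (s : G) • β = α := h
      have e : β = (s : G)⁻¹ • α := by rw [← h', inv_smul_smul]
      rw [e, hSα _ (S.inv_mem s.2)]
    have hcompl : ({α}ᶜ : Set Ω).ncard = 64 := by
      rw [Set.ncard_compl, Set.ncard_singleton, hcardΩ]
    have heq : orbit ↥S β = ({α}ᶜ : Set Ω) :=
      Set.eq_of_subset_of_ncard_le hsub (by rw [hcompl]; exact h64) (Set.toFinite _)
    intro γ hγ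
    have hmem : γ ∈ orbit ↥S β := by rw [heq]; exact hγ
    obtain ⟨s, hs⟩ := hmem
    exact ⟨s, s.2, hs⟩
  -- `α` is the only fixed point of `z`
  have hzα : z • α = α := hSα z hzS
  have hzuniq : ∀ β : Ω, z • β = β → β = α := by
    intro β hzβ
    by_contra hβ
    apply hz1
    apply FaithfulSMul.eq_of_smul_eq_smul (α := Ω)
    intro γ
    rw [one_smul]
    by_cases hγ : γ = α
    · rw [hγ]; exact hzα
    · obtain ⟨s, hs, rfl⟩ := horbS β hβ γ hγ
      rw [smul_smul, ← hzc s (hSP hs), ← smul_smul, hzβ]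
  -- `P` fixes `α`
  have hPα : P ≤ stabilizer G α := by
    intro g hg
    rw [mem_stabilizer_iff]
    apply hzuniq
    rw [smul_smul, ← hzc g hg, ← smul_smul, hzα]
  have hstab : Nat.card (stabilizer G α) = 276480 := by
    have hidx := Subgroup.index_mul_card (stabilizer G α)
    have horb : orbit G α = Set.univ := by
      ext γ
      simp only [Set.mem_univ, iff_true]
      by_cases hγ : γ = α
      · rw [hγ]; exact mem_orbit_self α
      · obtain ⟨g, hg, _⟩ := hT2 (Ne.symm hγ) hγ
        exact ⟨g, hg⟩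
    rw [index_stabilizer, horb, Set.ncard_univ, hcardΩ, hG] at hidx
    omega
  exact he _ hPα hstab

end Cfsg.Agent.Lib.Helper99.TG
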